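import Cfsg.Agent.H9.PuigL

/-! The Baer ring of a group of class two and odd order. -/

set_option autoImplicit false

namespace CfLj

open Subgroup CfH9
open scoped commutatorElement

universe u

/-- class at most two, odd order -/
def C2 (H : Type u) [Group H] : Prop := (∀ x y z : H, Commute z ⁅x, y⁆) ∧ Odd (Nat.card H)

/-- the Baer ring -/
def Br (H : Type u) : Type u := H

namespace Br

variable {H : Type u} [Group H]

/-- the underlying element -/
def v (x : Br H) : H := x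

/-- the inverse of `v` -/
def mk (x : H) : Br H := x

/-- half -/
noncomputable abbrev hf (H : Type u) : ℕ := (Nat.card H + 1) / 2

noncomputable instance : Add (Br H) := ⟨fun x y => (x.v * y.v * ⁅y.v, x.v⁆ ^ hf H : H)⟩
instance : Zero (Br H) := ⟨(1 : H)⟩
instance : Neg (Br H) := ⟨fun x => (x.v⁻¹ : H)⟩

omit [Group H] in
theorem ext {x y : Br H} (h : x.v = y.v) : x = y := h
theorem v_add (x y : Br H) : (x + y).v = x.v * y.v * ⁅y.v, x.v⁆ ^ hf H := rfl
theorem v_zero : (0 : Br H).v = 1 := rfl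
theorem v_neg (x : Br H) : (-x).v = x.v⁻¹ := rfl

variable [h : Fact (C2 H)]

theorem cm (x y z : H) : Commute z ⁅x, y⁆ := h.out.1 x y z

theorem cml (x y z : H) : ⁅x * y, z⁆ = ⁅x, z⁆ * ⁅y, z⁆ := by
  rw [comm_mul_left_of_commute (cm _ _ _), (cm _ _ _).eq]

theorem cmr (x y z : H) : ⁅x, y * z⁆ = ⁅x, y⁆ * ⁅x, z⁆ := comm_mul_right_of_commute (cm _ _ _)

theorem cl (x y z : H) (k : ℕ) : ⁅⁅x, y⁆ ^ k, z⁆ = 1 := ((cm x y z).symm.pow_left k).commutator_eq

theorem cr (x y z : H) (k : ℕ) : ⁅z, ⁅x, y⁆ ^ k⁆ = 1 := ((cm x y z).pow_right k).commutator_eq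

theorem hf2 (x : H) : x ^ hf H * x ^ hf H = x := by
  obtain ⟨k, hk⟩ := h.out.2
  rw [← pow_add, show hf H + hf H = Nat.card H + 1 by rw [hf]; omega, pow_succ, pow_card_eq_one',
    one_mul]

theorem mul_eq (x y : H) : x * y * ⁅y, x⁆ ^ hf H = y * x * ⁅x, y⁆ ^ hf H := by
  rw [← commutatorElement_inv x y, inv_pow, mul_inv_eq_iff_eq_mul, mul_assoc, hf2, (cm _ _ _).eq,
    commutatorElement_def]
  group

noncomputable instance : AddCommGroup (Br H) :=
  { AddGroup.ofLeftAxioms (G := Br H) (fun x y z => ext (by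
      simp only [v_add, cml, cmr, cl, cr, mul_one, (cm _ _ _).mul_pow, mul_assoc]
      rw [((cm _ _ _).pow_right _).symm.left_comm, ((cm _ _ _).pow_pow _ _).eq,
        ((cm _ _ _).pow_pow _ _).left_comm]))
      (fun x => ext (by simp [v_add, v_zero])) fun x => ext (by
        rw [v_add, v_neg, (Commute.refl _).inv_right.commutator_eq, one_pow, mul_one, inv_mul_cancel, v_zero]) with
    add_comm := fun x y => ext (mul_eq _ _) }

theorem v_nsmul (x : Br H) (k : ℕ) : (k • x).v = x.v ^ k := by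
  induction k with
  | zero => rw [zero_nsmul, pow_zero, v_zero]
  | succ k ih =>
    rw [succ_nsmul, v_add, ih, ((Commute.refl _).pow_right k).commutator_eq, one_pow, mul_one, pow_succ]

theorem add_cen (x : Br H) {y : Br H} (hy : ∀ z, Commute z y.v) : (x + y).v = x.v * y.v := by
  rw [v_add, (hy _).symm.commutator_eq, one_pow, mul_one]

/-- the bracket -/
noncomputable def bk : Br H →+ Br H →+ Br H :=
  AddMonoidHom.mk' (fun x => AddMonoidHom.mk' (fun y => mk ⁅x.v, y.v⁆) fun y z => ext (by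
    rw [add_cen _ (y := mk _) (cm _ _)]
    change ⁅_, (y + z).v⁆ = _
    rw [v_add, cmr, cr, mul_one, cmr]; rfl)) fun x y => AddMonoidHom.ext fun z => ext (by
      change ⁅(x + y).v, z.v⁆ = (mk ⁅x.v, z.v⁆ + mk ⁅y.v, z.v⁆).v
      rw [add_cen _ (y := mk _) (cm _ _), v_add, cml, cl, mul_one, cml]; rfl)

theorem v_bk (x y : Br H) : (bk x y).v = ⁅x.v, y.v⁆ := rfl

/-- automorphisms are additive -/
noncomputable def aut (f : MulAut H) : Br H →+ Br H :=
  AddMonoidHom.mk' (fun x => mk (f x.v)) fun x y => ext (by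
    change f (x + y).v = _
    rw [v_add, map_mul, map_mul, map_pow, map_commutatorElement]; rfl)

theorem v_aut (f : MulAut H) (x : Br H) : (aut f x).v = f x.v := rfl

/-- the additive action of the automorphism group -/
noncomputable def rep (n : ℕ) [Module (ZMod n) (Br H)] : MulAut H →* Module.End (ZMod n) (Br H) where
  toFun a := (aut a).toZModLinearMap _
  map_one' := rfl
  map_mul' _ _ := rfl

/-- the action of the group ring -/
noncomputable def lft (n : ℕ) [Module (ZMod n) (Br H)] {A : Type u} [Group A] (θ : A →* MulAut H) :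
    MonoidAlgebra (ZMod n) A →+* Module.End (ZMod n) (Br H) :=
  (MonoidAlgebra.lift (ZMod n) (Module.End (ZMod n) (Br H)) A ((rep n).comp θ)).toRingHom

/-- the module over the group ring -/
@[reducible] noncomputable def md (n : ℕ) [Module (ZMod n) (Br H)] {A : Type u} [Group A]
    (θ : A →* MulAut H) : Module (MonoidAlgebra (ZMod n) A) (Br H) := Module.compHom _ (lft n θ)

theorem lft_of (n : ℕ) [Module (ZMod n) (Br H)] {A : Type u} [Group A] (θ : A →* MulAut H) (a : A)
    (x : Br H) : (lft n θ (MonoidAlgebra.of _ _ a) x).v = θ a x.v := by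
  rw [show lft n θ (MonoidAlgebra.of _ _ a) = _ from MonoidAlgebra.lift_of _ _]; rfl

end Br

/-- the additive description of an abelian group `A` acting on `K` -/
structure BR {G R M : Type u} [Group G] [CommRing R] [AddCommGroup M] [Module R M]
    (K A : Subgroup G) (ι : A →* R) (σ : R →+* R) (β : M →+ M →+ M) (c : M → G) (h : R) : Prop where
  ind : ∀ P : R → Prop, (∀ a, P (ι a)) → P 0 → (∀ r s, P r → P s → P (r + s)) → ∀ r, P r
  sg : ∀ a, σ (ι a) = ι a⁻¹
  nil : ∀ a, IsNilpotent (ι a - 1)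
  h2 : 2 * h = 1
  inj : Function.Injective c
  mem : ∀ x, c x ∈ K
  surj : ∀ k ∈ K, ∃ x, c x = k
  mul : ∀ x y, c x * c y = c (x + y + h • β x y)
  add : ∀ E : Subgroup G, ∀ x y, c x ∈ E → c y ∈ E → c (x + y) ∈ E
  neg : ∀ x, c (-x) = (c x)⁻¹
  act : ∀ (a : A) x, c (ι a • x) = a * c x * (a : G)⁻¹
  bk : ∀ x y, c (β x y) = ⁅c x, c y⁆
  cen : ∀ x y z, β (β x y) z = 0

open scoped IsMulCommutative in
theorem ex_br {G : Type u} [Group G] [Finite G] {p : ℕ} [hp : Fact p.Prime] (h2 : p ≠ 2)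
    {K A : Subgroup G} (hK : IsPGroup p K) (hA : IsPGroup p A) (hc : ⁅K, K⁆ ≤ Cz(K))
    (hn : A ≤ Nm(K)) [IsMulCommutative A] :
    ∃ (R M : Type u) (_ : CommRing R) (_ : AddCommGroup M) (_ : Module R M) (ι : A →* R)
      (σ : R →+* R) (β : M →+ M →+ M) (c : M → G) (h : R), BR K A ι σ β c h := by
  obtain ⟨n, hn'⟩ := IsPGroup.iff_card.1 hK
  haveI : Fact (C2 K) := ⟨fun x y z => Subtype.ext
    (hc (commutator_mem_commutator x.2 y.2) z z.2), hn' ▸ (hp.out.odd_of_ne_two h2).pow⟩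
  letI : Module (ZMod (Nat.card K)) (Br K) := AddCommGroup.zmodModule fun x => Br.ext (by
    rw [Br.v_nsmul, pow_card_eq_one', Br.v_zero])
  let θ : A →* MulAut K := K.normalizerMonoidHom.comp (inclusion hn)
  let R := MonoidAlgebra (ZMod (Nat.card K)) A
  letI : Module R (Br K) := Br.md (Nat.card K) θ
  have c0 : ((Nat.card K : ℕ) : R) = 0 := by
    rw [← map_natCast (algebraMap (ZMod (Nat.card K)) R), ZMod.natCast_self, map_zero]
  refine ⟨R, Br K, inferInstance, _, this, MonoidAlgebra.of _ _,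
    MonoidAlgebra.mapDomainRingHom _ invMonoidHom, Br.bk, fun x => x.v, (Br.hf K : ℕ),
    fun P h1 h0 h2 r => r.induction_on h1 h2 fun z r hr => ?_, fun a => MonoidAlgebra.mapDomain_single, fun a => ?_, ?_,
    fun x y e => Subtype.ext e, fun x => x.v.2, fun k hk => ⟨(⟨k, hk⟩ : K), rfl⟩, fun x y => ?_,
    fun E x y h1 h2 => ?_, fun _ => rfl, fun a x => ?_, fun _ _ => rfl,
    fun x y z => Br.ext (Br.cm x.v y.v z.v).symm.commutator_eq⟩
  · obtain ⟨z, rfl⟩ := ZMod.natCast_zmod_surjective z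
    rw [Nat.cast_smul_eq_nsmul]
    induction z with
    | zero => rwa [zero_nsmul]
    | succ z ih => rw [succ_nsmul]; exact h2 _ _ ih hr
  · obtain ⟨j, hj⟩ := hA a
    obtain ⟨r, hr⟩ := exists_add_pow_prime_pow_eq hp.out (MonoidAlgebra.of (ZMod (Nat.card K)) A a) (-1) j
    rw [← map_pow, hj, map_one, (hp.out.odd_of_ne_two h2).pow.neg_one_pow, add_neg_cancel, zero_add,
      ← sub_eq_add_neg, mul_assoc, mul_assoc] at hr
    exact IsNilpotent.of_pow (hr ▸ (Commute.all _ _).isNilpotent_mul_right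
      ⟨n, by rw [← Nat.cast_pow, ← hn', c0]⟩)
  · obtain ⟨k, hk⟩ := (Fact.out : C2 K).2
    rw [← zero_add (1 : R), ← c0]
    exact_mod_cast congrArg (Nat.cast (R := R)) (show 2 * Br.hf K = Nat.card K + 1 by rw [Br.hf]; omega)
  · rw [Nat.cast_smul_eq_nsmul, Br.add_cen (H := K) _ fun z => by
      rw [Br.v_nsmul]; exact (Br.cm _ _ z).pow_right _, Br.v_nsmul, Br.v_add, Br.v_bk, ← commutatorElement_inv x.v, inv_pow, inv_mul_cancel_right]
    rfl
  · exact mul_mem (mul_mem h1 h2) (pow_mem (commutator_le_self E (commutator_mem_commutator h2 h1)) _)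
  · exact congrArg Subtype.val (Br.lft_of _ θ a x)

end CfLj
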