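import Cfsg.Agent.L.JA

/-! Basic identities in the Baer ring of a class two group acted on by an abelian group. -/

set_option autoImplicit false
set_option linter.unusedSectionVars false

namespace CfLj

open Subgroup CfH9 Cfsg
open CfH7 hiding dl
open scoped commutatorElement

universe u

theorem idx {G H : Type*} [Group G] [Group H] [Finite G] [Finite H] {A1 A2 : Subgroup G}
    {B1 B2 : Subgroup H} (hB : B1 ≤ B2) (f : G → H) (hf : ∀ a ∈ A2, f a ∈ B2)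
    (hi : ∀ a ∈ A2, ∀ b ∈ A2, (f a)⁻¹ * f b ∈ B1 → a⁻¹ * b ∈ A1) :
    Nat.card A2 * Nat.card B1 ≤ Nat.card A1 * Nat.card B2 ∧
      (Nat.card A1 * Nat.card B2 ≤ Nat.card A2 * Nat.card B1 →
        ∀ t ∈ B2, ∃ a ∈ A2, (f a)⁻¹ * t ∈ B1) := by
  let g : A2 ⧸ A1.subgroupOf A2 → B2 ⧸ B1.subgroupOf B2 := fun q =>
    QuotientGroup.mk ⟨f q.out, hf _ q.out.2⟩
  have hg : Function.Injective g := fun q r e => by
    rw [← q.out_eq', ← r.out_eq']
    exact QuotientGroup.eq.2 (hi _ q.out.2 _ r.out.2 (mem_subgroupOf.1 (QuotientGroup.eq.1 e)))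
  have h1 : A1.relIndex A2 ≤ B1.relIndex B2 := Nat.card_le_card_of_injective g hg
  have h2 := CfH9.card_mul_relIndex (inf_le_right : A1 ⊓ A2 ≤ A2)
  rw [inf_relIndex_right] at h2
  have h3 := CfH9.card_mul_relIndex hB
  have h4 : Nat.card (A1 ⊓ A2 : Subgroup G) ≤ Nat.card A1 := card_le_of_le inf_le_left
  refine ⟨?_, fun h t ht => ?_⟩
  · rw [← h2, ← h3, mul_assoc, mul_comm (Nat.card B1)]
    exact Nat.mul_le_mul h4 (Nat.mul_le_mul_right _ h1)
  · have h5 : B1.relIndex B2 ≤ A1.relIndex A2 := by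
      refine Nat.le_of_mul_le_mul_left (h3 ▸ ?_) (Nat.card_pos (α := B1))
      refine Nat.le_of_mul_le_mul_left (h.trans ?_) (Nat.card_pos (α := A1))
      rw [← h2, mul_assoc, mul_comm (Nat.card B1)]
      exact Nat.mul_le_mul_right _ h4
    obtain ⟨q, e⟩ := (hg.bijective_of_nat_card_le h5).2 (QuotientGroup.mk ⟨t, ht⟩)
    exact ⟨_, q.out.2, mem_subgroupOf.1 (QuotientGroup.eq.1 e)⟩

variable {G R M : Type u} [Group G] [CommRing R] [AddCommGroup M] [Module R M] {K A : Subgroup G}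
  {ι : A →* R} {σ : R →+* R} {β : M →+ M →+ M} {c : M → G} {h : R} {x y t f : M} {r ρ : R}

/-- fixed points -/
def Fx (ι : A →* R) (M : Type u) [AddCommGroup M] [Module R M] : Submodule R M where
  carrier := {m | ∀ a, ι a • m = m}
  add_mem' h1 h2 a := by rw [smul_add, h1, h2]
  zero_mem' _ := smul_zero _
  smul_mem' r m h a := by rw [smul_comm, h]

/-- the augmentation ideal -/
def Ia (ι : A →* R) : Ideal R := Ideal.span (Set.range fun a => ι a - 1)

/-- the antisymmetric elements -/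
abbrev sk (ι : A →* R) (v : A) : R := ι v - ι v⁻¹

theorem n_mem (a : A) : ι a - 1 ∈ Ia ι := Ideal.subset_span ⟨a, rfl⟩

theorem ii (ι : A →* R) (a : A) : ι a * ι a⁻¹ = 1 := by rw [← map_mul, mul_inv_cancel, map_one]

theorem d_mem (a b : A) : ι a - ι b ∈ Ia ι := by
  simpa using sub_mem (n_mem (ι := ι) a) (n_mem b)

theorem I_mem {N : Submodule R M} (h : ∀ a, (ι a - 1) • y ∈ N) (hρ : ρ ∈ Ia ι) : ρ • y ∈ N :=
  Submodule.span_induction (p := fun ρ _ => ρ • y ∈ N) (by rintro _ ⟨a, rfl⟩; exact h a) (by simp)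
    (fun r s _ _ h1 h2 => add_smul r s y ▸ add_mem h1 h2)
    (fun r s _ h1 => smul_assoc r s y ▸ N.smul_mem _ h1) hρ

theorem I_fix (hf : f ∈ Fx ι M) (hρ : ρ ∈ Ia ι) : ρ • f = 0 :=
  I_mem (N := ⊥) (fun a => by rw [sub_smul, hf, one_smul, sub_self]; exact zero_mem _) hρ

theorem fix_of (h : ∀ ρ ∈ Ia ι, ρ • f = 0) : f ∈ Fx ι M := fun a => by
  simpa [sub_smul, sub_eq_zero] using h _ (n_mem a)

theorem pw_ind {N : Submodule R M} {k l : ℕ}
    (h : ∀ r ∈ Ia ι ^ k, ∀ s ∈ Ia ι ^ l, r • s • y ∈ N) : ∀ ρ ∈ Ia ι ^ (k + l), ρ • y ∈ N :=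
  fun _ hρ => Submodule.mul_induction_on (C := fun ρ => ρ • y ∈ N) (pow_add (Ia ι) k l ▸ hρ)
    (fun r hr s hs => mul_smul r s y ▸ h r hr s hs) fun r s h1 h2 => add_smul r s y ▸ add_mem h1 h2

theorem pw_mul {k l : ℕ} {s : R} (hr : r ∈ Ia ι ^ k) (hs : s ∈ Ia ι ^ l) : r * s ∈ Ia ι ^ (k + l) :=
  pow_add (Ia ι) k l ▸ Ideal.mul_mem_mul hr hs

theorem pw1 (hr : r ∈ Ia ι) : r ∈ Ia ι ^ 1 := by rwa [pow_one]

theorem pw_up {N : Submodule R M} {k : ℕ} (h : ∀ r ∈ Ia ι ^ k, r • y ∈ N ⊔ Fx ι M) :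
    ∀ ρ ∈ Ia ι ^ (1 + k), ρ • y ∈ N := pw_ind fun r hr s hs => by
  obtain ⟨z, hz, f, hf, e⟩ := Submodule.mem_sup.1 (h s hs)
  rw [← e, smul_add, I_fix hf (pow_one (Ia ι) ▸ hr), add_zero]
  exact N.smul_mem _ hz

theorem pw_zero {k : ℕ} (h : ∀ r ∈ Ia ι ^ k, r • y ∈ Fx ι M) :
    ∀ ρ ∈ Ia ι ^ (1 + k), ρ • y = 0 := pw_up (N := ⊥) fun r hr => Submodule.mem_sup_right (h r hr)

theorem pw_fix {k : ℕ} (h : ∀ ρ ∈ Ia ι ^ (1 + k), ρ • y = 0) (hr : r ∈ Ia ι ^ k) :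
    r • y ∈ Fx ι M := fix_of fun _ hρ => by rw [smul_smul]; exact h _ (pw_mul (pw1 hρ) hr)

theorem sk_eq (a b : A) : sk ι b - sk ι a = (1 + ι (a * b)⁻¹) * (ι a * (ι (a⁻¹ * b) - 1)) := by
  simp only [sk, mul_inv_rev, map_mul]
  linear_combination (ι b⁻¹ - ι b - ι a⁻¹ * ι b * ι b⁻¹) * ii ι a - ι a⁻¹ * ii ι b

theorem sk_eq' (b : A) : sk ι b = (1 + ι b⁻¹) * (ι b - 1) := by
  simp only [sk]
  linear_combination (-1) * ii ι b

theorem sk_one : sk ι 1 = 0 := by simp [sk]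

namespace BR

variable (b : BR K A ι σ β c h)
include b

theorem c0 : c 0 = 1 := by simpa using b.mul 0 0

theorem alt (x : M) : β x x = 0 := b.inj (by rw [b.bk, b.c0, commutatorElement_self])

theorem anti (x y : M) : β x y = -β y x :=
  b.inj (by rw [b.neg, b.bk, b.bk, commutatorElement_inv])

theorem flip (h : β x y = 0) : β y x = 0 := by rw [b.anti, h, neg_zero]

theorem eqv (a : A) (x y : M) : β (ι a • x) (ι a • y) = ι a • β x y := b.inj (by
  rw [b.act, b.bk, b.bk, b.act, b.act]; simp only [commutatorElement_def]; group)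

theorem mov (a : A) (x y : M) : β (ι a • x) y = ι a • β x (ι a⁻¹ • y) := by
  rw [← b.eqv, smul_smul, ii, one_smul]

theorem mov' (a : A) (x y : M) : β x (ι a • y) = ι a • β (ι a⁻¹ • x) y := by
  rw [← b.eqv, smul_smul, ii, one_smul]

theorem cen' (r : R) (x y z : M) : β (r • β x y) z = 0 :=
  b.ind (fun r => β (r • β x y) z = 0) (fun a => by rw [← b.eqv, b.cen]) (by simp)
    (fun r s h1 h2 => by simp [add_smul, h1, h2]) r

theorem fixl (hf : f ∈ Fx ι M) (r : R) (y : M) : β f (r • y) = r • β f y :=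
  b.ind (fun r => β f (r • y) = r • β f y) (fun a => by rw [b.mov', hf]) (by simp)
    (fun r s h1 h2 => by simp [add_smul, h1, h2]) r

theorem unit (w : A) : IsUnit (1 + ι w) := by
  rw [show 1 + ι w = 2 + (ι w - 1) by ring]
  exact (b.nil w).isUnit_add_left_of_commute (IsUnit.of_mul_eq_one h b.h2) (Commute.all _ _)

theorem of_sk {N : Submodule R M} {v : A} (hv : sk ι v • y ∈ N) : (ι v - 1) • y ∈ N := by
  rwa [sk_eq', mul_smul, N.smul_mem_iff_of_isUnit (b.unit _)] at hv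

theorem cd (e : β x y = 0) : (c x)⁻¹ * c y = c (y - x) := by
  rw [← b.neg, b.mul, map_neg, AddMonoidHom.neg_apply, e, neg_zero, smul_zero, add_zero,
    neg_add_eq_sub]

theorem fix_of_mem (hA : IsMulCommutative A) (hx : c x ∈ A) : x ∈ Fx ι M := fun a =>
  b.inj (by rw [b.act, comm_iff.1 hA _ a.2 _ hx, mul_inv_cancel_right])

theorem nilI [Finite G] : ∃ n, ∀ ρ ∈ Ia ι ^ n, ρ = 0 :=
  (Ideal.exists_pow_le_of_le_radical_of_fg (J := ⊥) (Ideal.span_le.2 (by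
    rintro _ ⟨a, rfl⟩; exact b.nil a)) (Submodule.fg_span (Set.finite_range _))).imp
      fun _ h _ hρ => h hρ

theorem par0 (r : R) : σ r - r ∈ Ia ι :=
  b.ind (fun r => σ r - r ∈ Ia ι) (fun a => b.sg a ▸ d_mem _ _) (by simp)
    (fun r s h1 h2 => by rw [map_add, add_sub_add_comm]; exact add_mem h1 h2) r

theorem par1 (hr : r ∈ Ia ι) : σ r + r ∈ Ia ι ^ (1 + 1) :=
  Submodule.span_induction (p := fun r _ => σ r + r ∈ Ia ι ^ (1 + 1)) (by
    rintro _ ⟨a, rfl⟩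
    rw [map_sub, b.sg, map_one, show ι a⁻¹ - 1 + (ι a - 1) = -((ι a - 1) * (ι a⁻¹ - 1)) by
      linear_combination ii ι a]
    exact neg_mem (pw_mul (pw1 (n_mem _)) (pw1 (n_mem _)))) (by simp)
    (fun _ _ _ _ h1 h2 => by rw [map_add, add_add_add_comm]; exact add_mem h1 h2)
    (fun s r hr h1 => by
      rw [smul_eq_mul, map_mul, show σ s * σ r + s * r = σ s * (σ r + r) - (σ s - s) * r by ring]
      exact sub_mem (Ideal.mul_mem_left _ _ h1) (pw_mul (pw1 (b.par0 s)) (pw1 hr))) hr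

theorem par (k : ℕ) : ∀ r ∈ Ia ι ^ k, σ r - (-1) ^ k * r ∈ Ia ι ^ (k + 1) := by
  induction k with
  | zero => intro r _; simpa using b.par0 r
  | succ k ih =>
    refine fun r hr => Submodule.mul_induction_on
      (C := fun r => σ r - (-1) ^ (k + 1) * r ∈ Ia ι ^ (k + 1 + 1)) (pow_succ (Ia ι) k ▸ hr)
      (fun r hr s hs => ?_) fun r s h1 h2 => by
        rw [map_add, mul_add, add_sub_add_comm]; exact add_mem h1 h2
    rw [map_mul, show σ r * σ s - (-1) ^ (k + 1) * (r * s) = (σ r - (-1) ^ k * r) * (σ s + s - s) +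
      (-1) ^ k * (r * (σ s + s)) by ring]
    exact add_mem (pw_mul (ih r hr) (sub_mem (Ideal.pow_le_pow_right (by omega) (b.par1 hs)) (pw1 hs)))
      (Ideal.mul_mem_left _ _ (pw_mul (l := 1 + 1) hr (b.par1 hs)))

/-- the additive group of a subgroup normalized by `A` -/
def ad (E : Subgroup G) (hE : A ≤ Nm(E)) : Submodule R M where
  carrier := {m | c m ∈ E}
  add_mem' := b.add E _ _
  zero_mem' := show c 0 ∈ E from b.c0 ▸ one_mem E
  smul_mem' r m hm := b.ind (fun r => c (r • m) ∈ E)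
    (fun a => b.act a m ▸ conj_mem_of_mem_normalizer (hE a.2) hm)
    (by rw [zero_smul, b.c0]; exact one_mem E) (fun r s h1 h2 => add_smul r s m ▸ b.add E _ _ h1 h2) r

theorem n_ad {E : Subgroup G} {hE : A ≤ Nm(E)} {v : A} (h1 : ⁅(v : G), c x⁆ ∈ E)
    (h2 : β (ι v • x) (-x) ∈ b.ad E hE) : (ι v - 1) • x ∈ b.ad E hE := by
  rw [commutatorElement_def, ← b.act, ← b.neg, b.mul] at h1
  rw [sub_smul, one_smul, sub_eq_add_neg]
  exact (add_mem_cancel_right (Submodule.smul_mem _ h h2)).1 (show _ ∈ b.ad E hE from h1)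

theorem dl_it {L N : Submodule R M} (hL : ∀ x ∈ L, ∀ y, β x y ∈ N ⊓ L) (g : A) (k : ℕ) :
    ∀ x ∈ L, (ι g⁻¹ - 1) ^ k • x ∈ N → ∃ y ∈ N, (dl (g : G))^[k] (c x) = c y := by
  induction k with
  | zero => exact fun x _ hx => ⟨x, by simpa using hx, rfl⟩
  | succ k ih =>
    intro x hx h1
    have e : dl (g : G) (c x) = c ((ι g⁻¹ - 1) • x + h • β (-x) (ι g⁻¹ • x)) := by
      rw [sub_smul, one_smul, ← neg_add_eq_sub, ← b.mul, b.neg, b.act]
      simp [dl, mul_assoc]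
    have h2 := Submodule.smul_mem _ h (hL _ (neg_mem hx) (ι g⁻¹ • x))
    rw [Function.iterate_succ_apply, e]
    refine ih _ (add_mem (L.smul_mem _ hx) h2.2) ?_
    rw [smul_add, smul_smul, ← pow_succ]
    exact add_mem h1 (N.smul_mem _ h2.1)

end BR

end CfLj
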