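import Cfsg.Agent.L.JB

/-! A replacement theorem for abelian subgroups of largest order acting on a class two group. -/

set_option autoImplicit false
set_option linter.unusedSectionVars false

namespace CfLj

open Subgroup CfH9 Cfsg
open CfH7 hiding dl
open scoped commutatorElement

universe u

variable {G R M : Type u} [Group G] [CommRing R] [AddCommGroup M] [Module R M]
  {K A S Q : Subgroup G} {ι : A →* R} {σ : R →+* R} {β : M →+ M →+ M} {c : M → G} {h : R}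
  {x y t f e : M} {r ρ : R}

/-- the twisting function -/
abbrev ph (ι : A →* R) (β : M →+ M →+ M) (y : M) (w : A) : M := β (ι w • y) y

/-- elements that can be used for replacement -/
structure Gd (ι : A →* R) (β : M →+ M →+ M) (y : M) : Prop where
  q : ∀ w, ∀ ρ ∈ Ia ι, ρ • ph ι β y w ∈ Fx ι M
  h : ∀ v w, ph ι β y (v * w) - ph ι β y v - ph ι β y w ∈ Fx ι M
  b : ∀ f ∈ Fx ι M, β f y ∈ Fx ι M

namespace BR

variable (b : BR K A ι σ β c h)
include b

theorem ph_one : ph ι β y 1 = 0 := by rw [ph, map_one, one_smul, b.alt]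

theorem ph_inv (g : Gd ι β y) (v : A) : ph ι β y v + ph ι β y v⁻¹ ∈ Fx ι M := by
  have := neg_mem (g.h v v⁻¹)
  rwa [mul_inv_cancel, b.ph_one, zero_sub, neg_sub, sub_neg_eq_add, add_comm] at this

theorem ss (g : Gd ι β y) (u v : A) :
    β (sk ι u • y) (sk ι v • y) = sk ι v • ph ι β y u - sk ι u • ph ι β y v := by
  have m1 : ∀ a w : A, β (ι w • y) (ι a • y) = ι a • ph ι β y (a⁻¹ * w) := fun a w => by
    rw [b.mov', smul_smul, ← map_mul]
  have m2 : ∀ a w : A, β (ι w⁻¹ • y) (ι a • y) = -ι w⁻¹ • ph ι β y (a * w) := fun a w => by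
    rw [b.mov, inv_inv, smul_smul, mul_comm, ← map_mul, b.anti, neg_smul, smul_neg]
  have q2 : ∀ a : A, ι a • ((ι a⁻¹ - 1) • ph ι β y v) = (ι a⁻¹ - 1) • ph ι β y v := fun a =>
    g.q v _ (n_mem _) a
  have f1 := g.h v⁻¹ u
  have f2 := g.h v u
  have f3 := b.ph_inv g v
  simp only [sk, sub_smul, map_sub, AddMonoidHom.sub_apply]
  rw [m1 v u, m1 v⁻¹ u, m2, m2, inv_inv]
  linear_combination (norm := module) f1 v - f1 u⁻¹ + f2 u⁻¹ - f2 v⁻¹ + f3 v - f3 u⁻¹ + q2 v - q2 u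
    + (ii ι u - ii ι v) • ph ι β y v

/-- fixed points modulo the values of the twisting function -/
def F0 (g : Gd ι β y) : Submodule R M where
  carrier := {m | ∃ w, m + ph ι β y w ∈ Fx ι M}
  add_mem' := by
    rintro m n ⟨v, hv⟩ ⟨w, hw⟩
    exact ⟨v * w, by convert add_mem (add_mem hv hw) (g.h v w) using 1; abel⟩
  zero_mem' := ⟨1, by rw [b.ph_one, add_zero]; exact zero_mem _⟩
  smul_mem' r m := by
    rintro ⟨v, hv⟩
    refine b.ind (fun r => ∃ w, r • m + ph ι β y w ∈ Fx ι M) (fun a => ⟨v, ?_⟩)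
      ⟨1, by rw [b.ph_one, add_zero, zero_smul]; exact zero_mem _⟩ ?_ r
    · convert sub_mem (Submodule.smul_mem _ (ι a) hv) (g.q v _ (n_mem a)) using 1
      module
    · rintro r s ⟨v, hv⟩ ⟨w, hw⟩
      exact ⟨v * w, by convert add_mem (add_mem hv hw) (g.h v w) using 1; module⟩

theorem le_F0 (g : Gd ι β y) (hf : f ∈ Fx ι M) : f ∈ b.F0 g :=
  ⟨1, by rwa [b.ph_one, add_zero]⟩

theorem bF0 {g : Gd ι β y} (he : e ∈ b.F0 g) : ∃ f ∈ Fx ι M, ∀ z, β e z = β f z := by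
  obtain ⟨w, hw⟩ := he
  exact ⟨_, hw, fun z => by rw [map_add, AddMonoidHom.add_apply, b.cen, add_zero]⟩

theorem F0_sk {g : Gd ι β y} (he : e ∈ b.F0 g) (w : A) : β e (sk ι w • y) = 0 := by
  obtain ⟨f, hf, e⟩ := b.bF0 he
  rw [e, b.fixl hf, I_fix (g.b f hf) (d_mem _ _)]

theorem B_ph {g : Gd ι β y} {u : A} (hu : (ι u - 1) • y ∈ b.F0 g) : ph ι β y u ∈ Fx ι M := by
  obtain ⟨f, hf, e⟩ := b.bF0 hu
  have := e y
  rw [sub_smul, one_smul, map_sub, AddMonoidHom.sub_apply, b.alt, sub_zero] at this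
  exact (show ph ι β y u = _ from this) ▸ g.b f hf

theorem B_fix {g : Gd ι β y} {u : A} (hu : (ι u - 1) • y ∈ b.F0 g) (he : e ∈ b.F0 g) :
    ι u • e = e := by
  obtain ⟨w, hw⟩ := he
  have h1 := b.ss g u w
  rw [b.F0_sk (by rw [sk_eq', mul_smul]; exact Submodule.smul_mem _ _ hu),
    I_fix (b.B_ph hu) (d_mem _ _), zero_sub, eq_comm, neg_eq_zero] at h1
  have h2 : (ι u - 1) • ph ι β y w = 0 := b.of_sk (N := ⊥) h1
  linear_combination (norm := module) hw u - h2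

theorem rep [Finite G] (hA : MaxEA 0 S A) (hK : K ≤ S) (hn : A ≤ Nm(K)) (g : Gd ι β y)
    (h1 : ∀ u, (ι u - 1) • y ∈ b.F0 g → ι u • t = t) (h2 : ∀ w, β t (sk ι w • y) = 0)
    (h3 : ∀ f ∈ Fx ι M, β f t = 0) :
    ∃ E, MaxEA 0 S E ∧ A ⊓ K ≤ E ∧ (∀ e ∈ b.F0 g, c e ∈ E) ∧
      (∀ v, ph ι β y v ∈ Fx ι M → c (sk ι v • y) ∈ E) ∧
      (∀ u, (ι u - 1) • y ∈ b.F0 g → ∃ k ∈ K, k * u ∈ E) ∧ ∃ v, t - sk ι v • y ∈ b.F0 g := by
  have hF : ∀ m ∈ Fx ι M, c m ∈ A := fun m hm => hA.inf_Cz_zero.le (mi (hK (b.mem m)) fun a ha => by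
    rw [← mul_inv_eq_iff_eq_mul]
    exact (b.act ⟨a, ha⟩ m).symm.trans (congrArg c (hm _)))
  have hFF : ∀ e ∈ b.F0 g, ∀ e' ∈ b.F0 g, β e e' = 0 := fun e he e' he' => by
    obtain ⟨f, hf, h⟩ := b.bF0 he
    obtain ⟨f', hf', h'⟩ := b.bF0 he'
    rw [h, b.anti, h', neg_eq_zero]
    exact b.inj (by rw [b.bk, b.c0, commutatorElement_eq_one_iff_mul_comm,
      comm_iff.1 hA.comm _ (hF _ hf') _ (hF _ hf)])
  have hFt : ∀ e ∈ b.F0 g, β e t = 0 := fun e he => by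
    obtain ⟨f, hf, h⟩ := b.bF0 he
    rw [h, h3 f hf]
  have x1 : ∀ e, e ∈ b.F0 g ∨ e = t → ∀ u, (ι u - 1) • y ∈ b.F0 g → ι u • e = e := by
    rintro e (he | rfl) u hu
    exacts [b.B_fix hu he, h1 u hu]
  have x2 : ∀ e, e ∈ b.F0 g ∨ e = t → ∀ w, β e (sk ι w • y) = 0 := by
    rintro e (he | rfl) u
    exacts [b.F0_sk he u, h2 u]
  have x3 : ∀ e, e ∈ b.F0 g ∨ e = t → ∀ e', e' ∈ b.F0 g ∨ e' = t → β e e' = 0 := by
    rintro e (he | rfl) e' (he' | h)
    exacts [hFF _ he _ he', h ▸ hFt _ he, b.flip (hFt _ he'), h ▸ b.alt _]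
  have y1 : ∀ u v, (ι u - 1) • y + ph ι β y v ∈ Fx ι M → ∀ e, e ∈ b.F0 g ∨ e = t → ∀ w,
      ι u • (sk ι w • y + e) = sk ι w • y + e - sk ι w • ph ι β y v := fun u v h e he w => by
    linear_combination (norm := module) x1 e he u ⟨v, h⟩ + I_fix h (d_mem w w⁻¹)
  let E := closure {z | ∃ u v e, (ι u - 1) • y + ph ι β y v ∈ Fx ι M ∧ (e ∈ b.F0 g ∨ e = t) ∧
    c (sk ι v • y + e) * u = z}
  have hc : IsMulCommutative E := isMulCommutative_closure (by
    rintro _ ⟨u, v, e, p1, p2, rfl⟩ _ ⟨u', v', e', p3, p4, rfl⟩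
    have a : ∀ (u u' : A) k k', c k * u * (c k' * u') =
        c (k + ι u • k' + h • β k (ι u • k')) * (u * u') := fun u u' k k' => by
      rw [← b.mul, b.act]; group
    have z : ∀ k r x y, β k (r • β x y) = 0 := fun k r x y => b.flip (b.cen' _ _ _ _)
    rw [a, a, comm_iff.1 hA.comm _ u.2 _ u'.2, y1 u v p1 e' p4, y1 u' v' p3 e p2]
    simp only [map_sub, map_add, AddMonoidHom.add_apply, z, x2 e p2, x2 e' p4, b.flip (x2 e p2 _),
      b.flip (x2 e' p4 _), x3 e p2 e' p4, x3 e' p4 e p2, b.ss g]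
    congr 2
    linear_combination (norm := module) b.h2 • (sk ι v' • ph ι β y v - sk ι v • ph ι β y v'))
  have hE : E ≤ S := (closure_le _).2 (by
    rintro _ ⟨u, v, e, -, -, rfl⟩; exact mul_mem (hK (b.mem _)) (hA.le u.2))
  have e1 : ∀ v, ph ι β y v ∈ Fx ι M → ∀ e, e ∈ b.F0 g ∨ e = t → c (sk ι v • y + e) ∈ E :=
    fun v hv e he => subset_closure ⟨1, v, e, by simpa using hv, he, mul_one _⟩
  have e2 : ∀ e, e ∈ b.F0 g ∨ e = t → c e ∈ E := fun e he => by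
    simpa [sk_one] using e1 1 (b.ph_one (y := y) ▸ zero_mem _) e he
  have e3 : ∀ v, ph ι β y v ∈ Fx ι M → c (sk ι v • y) ∈ E := fun v hv => by
    simpa using e1 v hv 0 (.inl (zero_mem _))
  have e4 : ∀ u, (ι u - 1) • y ∈ b.F0 g → ∃ k ∈ K, k * u ∈ E := fun u ⟨v, hv⟩ =>
    ⟨_, b.mem _, subset_closure ⟨u, v, 0, hv, .inl (zero_mem _), rfl⟩⟩
  let F1 : Subgroup G :=
    { carrier := {z | ∃ e ∈ b.F0 g, c e = z}
      mul_mem' := by
        rintro _ _ ⟨e, he, rfl⟩ ⟨e', he', rfl⟩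
        exact ⟨_, add_mem he he', by rw [b.mul, hFF e he e' he', smul_zero, add_zero]⟩
      one_mem' := ⟨0, zero_mem _, b.c0⟩
      inv_mem' := by rintro _ ⟨e, he, rfl⟩; exact ⟨_, neg_mem he, b.neg e⟩ }
  let A1 : Subgroup A :=
    { carrier := {v | ph ι β y v ∈ Fx ι M}
      mul_mem' := fun {v w} hv hw => by simpa using add_mem (add_mem (g.h v w) hw) hv
      one_mem' := show _ ∈ Fx ι M from b.ph_one (y := y) ▸ zero_mem _
      inv_mem' := fun {v} hv => (add_mem_cancel_left hv).1 (b.ph_inv g v) }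
  let B : Subgroup A :=
    { carrier := {u | (ι u - 1) • y ∈ b.F0 g}
      mul_mem' := fun {v w} hv hw => show _ ∈ b.F0 g by
        convert add_mem ((b.F0 g).smul_mem (ι v) hw) (show _ ∈ b.F0 g from hv) using 1
        rw [map_mul]; module
      one_mem' := show _ ∈ b.F0 g by simp
      inv_mem' := fun {v} hv => show _ ∈ b.F0 g by
        convert (b.F0 g).smul_mem (-ι v⁻¹) hv using 1
        linear_combination (norm := module) ii ι v • y }
  have l1 : A ⊓ K ≤ F1 := fun z hz => by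
    obtain ⟨m, rfl⟩ := b.surj z hz.2
    exact ⟨m, b.le_F0 g (b.fix_of_mem hA.comm hz.1), rfl⟩
  have l2 : F1 ≤ E ⊓ K := by rintro _ ⟨e, he, rfl⟩; exact mi (e2 e (.inl he)) (b.mem e)
  have i1 := (idx (A1 := A1) (A2 := ⊤) l1 (fun w => c (ph ι β y w))
    (fun w _ => ⟨_, ⟨_, b.ph_inv g w⟩, rfl⟩) fun v _ w _ h => by
      rw [b.cd (b.cen _ _ _)] at h
      have := g.h v (v⁻¹ * w)
      rw [mul_inv_cancel_left] at this
      exact show _ ∈ Fx ι M by simpa using sub_mem (b.fix_of_mem hA.comm h.1) this).1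
  obtain ⟨i2, i2'⟩ := idx (A1 := B) (A2 := A1) l2 (fun w => c (sk ι w • y))
    (fun w hw => mi (e3 w hw) (b.mem _)) fun v hv w hw h => by
      rw [b.cd (by rw [b.ss g, I_fix hv (d_mem _ _), I_fix hw (d_mem _ _), sub_zero]), ← sub_smul,
        sk_eq, mul_smul, mul_smul] at h
      obtain ⟨e, he, h⟩ := h
      rwa [b.inj h, Submodule.smul_mem_iff_of_isUnit _ (b.unit _),
        Submodule.smul_mem_iff_of_isUnit _ ((Group.isUnit v).map ι)] at he
  choose! k k1 k2 using e4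
  have i3 := (idx (A1 := K.subgroupOf A) (A2 := B) (inf_le_left : E ⊓ K ≤ E) (fun u => k u * u) k2
    fun v hv w hw h => mem_subgroupOf.2 (by
      have := mul_mem (inv_mem (conj_mem_of_mem_normalizer' (hn v.2)
        (mul_mem (inv_mem (k1 v hv)) (k1 w hw)))) h.2
      simpa [mul_assoc] using this)).1
  have i4 := hA.max E hE (elemAb_zero_iff.2 hc)
  rw [← card_map_of_injective (K := K.subgroupOf A) A.subtype_injective, subgroupOf_map_subtype, inf_comm K] at i3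
  rw [card_top] at i1
  obtain ⟨v, -, e, he, h⟩ := i2' (i3.trans (((Nat.mul_le_mul_left _ i4).trans_eq
    (mul_comm _ _)).trans i1)) _ (mi (e2 t (.inr rfl)) (b.mem t))
  rw [b.cd (b.flip (h2 v))] at h
  exact ⟨E, hA.of_card_le hE (elemAb_zero_iff.2 hc) (Nat.le_of_mul_le_mul_left
    ((mul_comm _ _).trans_le ((i1.trans i2).trans i3)) Nat.card_pos),
    l1.trans (l2.trans inf_le_left), fun e he => e2 e (.inl he), e3, fun u hu => ⟨_, k1 u hu, k2 u hu⟩,
    v, b.inj h ▸ he⟩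

end BR

end CfLj
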