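import Cfsg.Agent.L.JC

/-! Abelian subgroups of largest order of low degree on a class two group. -/

set_option autoImplicit false
set_option linter.unusedSectionVars false

namespace CfLj

open Subgroup CfH9 Cfsg
open CfH7 hiding dl
open scoped commutatorElement

universe u

variable {G R M : Type u} [Group G] [CommRing R] [AddCommGroup M] [Module R M]
  {K A S Q Z : Subgroup G} {ι : A →* R} {σ : R →+* R} {β : M →+ M →+ M} {c : M → G} {h : R}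
  {x y t f e : M} {r ρ : R}

/-- an extremal choice of `A` -/
structure Ex (S Q K A : Subgroup G) : Prop where
  mx : MaxEA 0 S A
  ks : K ≤ S
  kq : K ≤ Q
  nm : A ≤ Nm(K)
  ex : ∀ E, MaxEA 0 S E → ¬ E ≤ Q →
    Nat.card (E ⊓ K : Subgroup G) ≤ Nat.card (A ⊓ K : Subgroup G)

theorem desc {P : ℕ → Prop} (h : ∀ k, P (k + 1) → P k) (n : ℕ) (hn : P n) : P 0 := by
  induction n with
  | zero => exact hn
  | succ n ih => exact ih (h n hn)

namespace BR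

variable [Finite G] (b : BR K A ι σ β c h) (hx : Ex S Q K A)
include b hx

theorem dd (g : Gd ι β y) {u : A} (hu : (ι u - 1) • y ∈ b.F0 g) (hQ : (u : G) ∉ Q) :
    ∀ ρ ∈ Ia ι ^ 1, ρ • y ∈ Fx ι M := by
  obtain ⟨E, h1, h2, h3, h4, h5, -⟩ := b.rep hx.mx hx.ks hx.nm g (t := 0) (fun _ _ => smul_zero _)
    (by simp) (by simp)
  obtain ⟨k, k1, k2⟩ := h5 u hu
  have h6 := eq_of_le_of_card_ge (le_inf h2 inf_le_right) (hx.ex E h1 fun e =>
    hQ ((Q.mul_mem_cancel_left (hx.kq k1)).1 (e k2)))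
  have h7 : ∀ m, c m ∈ E → m ∈ Fx ι M := fun m hm =>
    b.fix_of_mem hx.mx.comm (h6.ge (mi hm (b.mem m))).1
  exact fun ρ hρ => I_mem (fun a => b.of_sk (h7 _ (h4 a (h7 _ (h3 _ ⟨_, b.ph_inv g a⟩)))))
    (pow_one (Ia ι) ▸ hρ)

omit hx in
theorem gd_cen (hy : ∀ x, β y x = 0) : Gd ι β y := by
  have : ∀ w, ph ι β y w = 0 := fun w => b.flip (hy _)
  exact ⟨fun w ρ _ => by simp [this], fun v w => by simp [this], fun f _ => by simp [b.flip (hy f)]⟩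

theorem quad (hy : ∀ x, β y x = 0) (hQ : ∀ v : A, (v : G) ∈ Q → ι v • y = y) :
    ∀ ρ ∈ Ia ι ^ 1, ρ • y ∈ Fx ι M := by
  have g := b.gd_cen (ι := ι) hy
  by_cases h : ∃ u : A, (ι u - 1) • y ∈ b.F0 g ∧ (u : G) ∉ Q
  · obtain ⟨u, h1, h2⟩ := h
    exact b.dd hx g h1 h2
  push Not at h
  obtain ⟨-, -, -, -, -, -, v, w, hw⟩ := b.rep hx.mx hx.ks hx.nm g (t := y)
    (fun u hu => hQ u (h u hu)) (fun _ => hy _) fun f _ => b.flip (hy f)
  rw [show ph ι β y w = 0 from b.flip (hy _), add_zero, show y - sk ι v • y = (1 - sk ι v) • y by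
    module, Submodule.smul_mem_iff_of_isUnit _ (IsNilpotent.isUnit_one_sub (sk_eq' (ι := ι) v ▸
      (Commute.all _ _).isNilpotent_mul_left (b.nil v)))] at hw
  exact fun ρ _ => Submodule.smul_mem _ ρ hw

theorem ml (hg : ∀ r : R, Gd ι β (r • y)) (hρ : ρ ∈ Ia ι ^ (1 + 1))
    (h2 : ∀ w, β (ρ • y) (sk ι w • y) = 0) :
    ∃ v : A, (v : G) ∈ Q ∧ ∃ w, ρ • y - sk ι v • y + ph ι β y w ∈ Fx ι M := by
  have g : Gd ι β y := one_smul R y ▸ hg 1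
  by_cases h3 : ∀ ρ ∈ Ia ι ^ (1 + (1 + 1)), ρ • y = 0
  · exact ⟨1, one_mem Q, 1, by simpa [sk_one, b.ph_one] using pw_fix h3 hρ⟩
  obtain ⟨-, -, -, -, -, -, v, w, hw⟩ := b.rep hx.mx hx.ks hx.nm g (t := ρ • y)
    (fun u ⟨w, hw⟩ => by
      have h1 := pw_zero (k := 1) (fun r hr => g.q w r (pow_one (Ia ι) ▸ hr)) ρ hρ
      have h4 := I_fix hw (Ideal.pow_le_self (by omega) hρ)
      linear_combination (norm := module) h4 - h1) h2
    fun f hf => by rw [b.fixl hf, I_fix (g.b f hf) (Ideal.pow_le_self (by omega) hρ)]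
  refine ⟨v, by_contra fun hv => h3 ?_, w, hw⟩
  obtain ⟨n, hn⟩ := b.nilI
  refine desc (P := fun k => ∀ ρ ∈ Ia ι ^ (1 + (1 + 1) + k), ρ • y = 0) (fun k hk => ?_) n
    fun ρ hρ => by rw [hn ρ (Ideal.pow_le_pow_right (by omega) hρ), zero_smul]
  rw [show 1 + (1 + 1) + k = 1 + 1 + (k + 1) by omega]
  refine pw_ind (N := ⊥) fun r hr s hs => pw_zero (b.dd hx (hg s) (b.le_F0 _ (b.of_sk ?_)) hv) r hr
  have h4 : ρ • s • y ∈ Fx ι M := pw_fix (fun r hr => by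
    rw [smul_smul]; exact hk _ (pw_mul hr hs)) hρ
  have h5 := Ideal.pow_le_self (by omega) hs
  convert add_mem h4 (g.q w s h5) using 1
  linear_combination (norm := module) -I_fix hw h5

theorem deg3 {L N : Submodule R M} (hL : ∀ x ∈ L, ∀ y, β x y = 0) (hy : y ∈ L)
    (hN : ∀ v : A, (v : G) ∈ Q → (ι v - 1) • y ∈ N) : ∀ ρ ∈ Ia ι ^ (1 + (1 + 1)), ρ • y ∈ N :=
  pw_up fun ρ hρ => by
    obtain ⟨v, hv, w, hw⟩ := b.ml hx (fun r => b.gd_cen (hL _ (L.smul_mem r hy))) hρ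
      fun _ => hL _ (L.smul_mem _ hy) _
    rw [show ph ι β y w = 0 from hL _ (L.smul_mem _ hy) _, add_zero] at hw
    refine Submodule.mem_sup.2 ⟨_, ?_, _, hw, add_sub_cancel _ _⟩
    rw [sk_eq', mul_smul]
    exact N.smul_mem _ (hN v hv)

theorem deg4 {N : Submodule R M} (h1 : ∀ x ∈ N, ∀ y, β x y = 0) (h2 : ∀ x y, β x y ∈ N)
    (h3 : ∀ v : A, (v : G) ∈ Q → ∀ x, (ι v - 1) • x ∈ N) (x : M) :
    ∀ ρ ∈ Ia ι ^ (1 + 3), ρ • x ∈ N := by
  have hq : ∀ x y, ∀ ρ ∈ Ia ι, ρ • β x y ∈ Fx ι M := fun x y ρ hρ =>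
    b.quad hx (b.cen x y) (fun v hv => by
      have e1 := h1 _ (h3 v hv x) (ι v • y)
      have e2 := b.flip (h1 _ (h3 v hv y) x)
      simp only [sub_smul, one_smul, map_sub, AddMonoidHom.sub_apply, sub_eq_zero] at e1 e2
      rw [← b.eqv, e1, e2]) ρ (pw1 hρ)
  have adj : ∀ x y (r : R), β (r • x) y - β x (σ r • y) ∈ Fx ι M := fun x y =>
    b.ind _ (fun a => by
      rw [b.mov, b.sg]
      simpa [sub_smul] using hq x (ι a⁻¹ • y) _ (n_mem a)) (by simp) fun r s h1 h2 => by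
        convert add_mem h1 h2 using 1
        simp only [map_add, add_smul, AddMonoidHom.add_apply]
        abel
  have par : ∀ x k, Even k → (∀ ρ ∈ Ia ι ^ (k + 1), β (ρ • x) x ∈ Fx ι M) → ∀ ρ ∈ Ia ι ^ k,
      β (ρ • x) x ∈ Fx ι M := fun x k hk h4 ρ hρ => by
    have h5 := h4 _ (b.par k ρ hρ)
    have h6 := adj x x ρ
    rw [hk.neg_one_pow, one_mul, sub_smul, map_sub, AddMonoidHom.sub_apply] at h5
    rw [b.anti x] at h6
    convert Submodule.smul_mem _ h (sub_mem h6 h5) using 1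
    linear_combination (norm := module) -b.h2 • β (ρ • x) x
  have step : ∀ x, (∀ ρ ∈ Ia ι ^ 4, ρ • x ∈ N ⊔ Fx ι M) → ∀ ρ ∈ Ia ι ^ 3, ρ • x ∈ N ⊔ Fx ι M := by
    intro x H4
    have g2 : ∀ r ∈ Ia ι, (∀ f ∈ Fx ι M, β f (r • x) ∈ Fx ι M) ∧
        ∀ ρ ∈ Ia ι ^ 2, β (ρ • r • x) (r • x) ∈ Fx ι M := fun r hr => by
      have gb : ∀ f ∈ Fx ι M, β f (r • x) ∈ Fx ι M := fun f hf => b.fixl hf r x ▸ hq _ _ _ hr
      refine ⟨gb, par _ 2 (by decide) fun ρ hρ => ?_⟩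
      obtain ⟨z, hz, f, hf, e⟩ := Submodule.mem_sup.1 (H4 _ (pw_mul hρ (pw1 hr)))
      rw [smul_smul, ← e, map_add, AddMonoidHom.add_apply, h1 z hz, zero_add]
      exact gb f hf
    have g4 := par x 4 (by decide) fun ρ hρ => by
      rw [h1 _ (pw_up H4 ρ hρ)]; exact zero_mem _
    refine pw_ind (k := 2) (l := 1) fun ρ hρ r hr => ?_
    have hr' := pow_one (Ia ι) ▸ hr
    obtain ⟨v, hv, w, hw⟩ := b.ml hx (y := r • x) (fun s => by
      rw [smul_smul]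
      obtain ⟨g3, g5⟩ := g2 _ (Ideal.mul_mem_left _ s hr')
      refine ⟨fun w => hq _ _, fun v w => ?_, g3⟩
      convert g5 _ (pw_mul (pw1 (n_mem v)) (pw1 (n_mem w))) using 1
      rw [show (ι v - 1) * (ι w - 1) = ι (v * w) - ι v - ι w + 1 by rw [map_mul]; ring]
      simp only [add_smul, sub_smul, one_smul, map_add, map_sub, AddMonoidHom.add_apply,
        AddMonoidHom.sub_apply, b.alt, add_zero]) hρ fun w => by
      have e1 : ∀ a, β (ρ • r • x) (ι a • r • x) = β ((ι a⁻¹ * ρ) • r • x) (r • x) := fun a => by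
        rw [b.mov', smul_smul _ ρ, (g2 r hr').2 _ (Ideal.mul_mem_left _ _ hρ)]
      have e2 := pw_mul (pw_mul (pw1 (d_mem w⁻¹ w⁻¹⁻¹)) hρ) hr
      have e3 := g4 _ e2
      obtain ⟨z, hz, f, hf, e⟩ := Submodule.mem_sup.1 (H4 _ e2)
      rw [← e, map_add, AddMonoidHom.add_apply, h1 z hz, zero_add] at e3
      rw [sub_smul, map_sub, e1, e1, ← AddMonoidHom.sub_apply, ← map_sub, ← sub_smul, ← sub_mul,
        smul_smul, ← e, map_add, AddMonoidHom.add_apply, h1 z hz, zero_add, b.fixl hf, I_fix e3 hr']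
    refine Submodule.mem_sup.2 ⟨sk ι v • r • x - ph ι β (r • x) w, sub_mem ?_ (h2 _ _), _, hw, by abel⟩
    rw [sk_eq', mul_smul]
    exact N.smul_mem _ (h3 v hv _)
  obtain ⟨n, hn⟩ := b.nilI
  refine pw_up (desc (P := fun k => ∀ ρ ∈ Ia ι ^ (3 + k), ρ • x ∈ N ⊔ Fx ι M) (fun k hk => ?_) n
    fun ρ hρ => by rw [hn ρ (Ideal.pow_le_pow_right (by omega) hρ), zero_smul]; exact zero_mem _)
  refine pw_ind fun r hr s hs => step _ (fun ρ hρ => ?_) r hr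
  rw [smul_smul]
  exact hk _ (show 4 + k = 3 + (k + 1) by omega ▸ pw_mul hρ hs)

end BR

open scoped IsMulCommutative in
theorem low_deg [Finite G] {p : ℕ} [Fact p.Prime] (h2 : p ≠ 2) (hS : IsPGroup p S)
    (hJ : ∃ A, MaxEA 0 S A ∧ ¬ A ≤ Q) (k1 : K ≤ S) (k2 : K ≤ Q) (k3 : S ≤ Nm(K)) (z1 : S ≤ Nm(Z))
    (z2 : Z ≤ Cz(K)) (z3 : ⁅K, Q⁆ ≤ Z) : ∃ g ∈ S, g ∉ Q ∧ (∀ k ∈ K, (dl g)^[4] k ∈ Z) ∧
      ∀ X Y, X ≤ K ⊓ Z → S ≤ Nm(Y) → ⁅X, Q⁆ ≤ Y → ∀ x ∈ X, (dl g)^[3] x ∈ Y := by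
  obtain ⟨A, ⟨a1, a2⟩, a3⟩ := Set.exists_max_image {A : Subgroup G | MaxEA 0 S A ∧ ¬ A ≤ Q}
    (fun A => Nat.card (A ⊓ K : Subgroup G)) (Set.toFinite _) hJ
  have hx : Ex S Q K A := ⟨a1, k1, k2, a1.le.trans k3, fun E h1 h2 => a3 E ⟨h1, h2⟩⟩
  have z4 := (commutator_mono le_rfl k2).trans z3
  have := a1.comm
  obtain ⟨R, M, _, _, _, ι, σ, β, c, h, b⟩ := ex_br h2 (hS.to_le k1) (hS.to_le a1.le) (z4.trans z2) hx.nm
  obtain ⟨g, g1, g2⟩ := SetLike.not_le_iff_exists.1 a2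
  have hZ := a1.le.trans z1
  have h1 : ∀ x ∈ b.ad Z hZ, ∀ y, β x y = 0 := fun x hx y => b.inj (by
    rw [b.bk, b.c0, commutatorElement_eq_one_iff_mul_comm, z2 hx _ (b.mem y)])
  have h3 : ∀ x y, β x y ∈ b.ad Z hZ := fun x y => show c _ ∈ Z from
    b.bk x y ▸ z4 (commutator_mem_commutator (b.mem x) (b.mem y))
  refine ⟨g, a1.le g1, g2, fun k hk => ?_, fun X Y x1 x2 x3 k hk => ?_⟩
  · obtain ⟨x, rfl⟩ := b.surj k hk
    obtain ⟨y, hy, e⟩ := b.dl_it (L := ⊤) (fun x _ y => ⟨h3 x y, trivial⟩) ⟨g, g1⟩ 4 x trivial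
      (b.deg4 hx h1 h3 (fun v hv x => b.n_ad (commutator_comm K Q ▸ z3 <|
        commutator_mem_commutator hv (b.mem x)) (h3 _ _)) x _ (Ideal.pow_mem_pow (n_mem _) _))
    exact e ▸ hy
  · obtain ⟨x, rfl⟩ := b.surj k (x1 hk).1
    have hY := a1.le.trans x2
    obtain ⟨y, hy, e⟩ := b.dl_it (N := b.ad Y hY) (fun x hx y => h1 x hx y ▸ zero_mem _) ⟨g, g1⟩ 3 x
      (x1 hk).2 (b.deg3 hx h1 (x1 hk).2 (fun v hv => b.n_ad (commutator_comm X Q ▸ x3 <|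
        commutator_mem_commutator hv hk) (by
          rw [h1 _ (Submodule.smul_mem _ _ (x1 hk).2)]; exact zero_mem _)) _
        (Ideal.pow_mem_pow (n_mem _) _))
    exact e ▸ hy

end CfLj
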