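import Cfsg.Agent.L.JD
import Cfsg.Agent.H1.Tate

/-! The normalizer of the Thompson subgroup controls transfer for `p ≥ 7`. -/

set_option autoImplicit false
set_option linter.unusedSectionVars false

namespace CfLj

open Subgroup CfH9 Cfsg CfH1
open CfH7 hiding dl
open scoped commutatorElement

universe u

variable {G : Type u} [Group G] {A B S Y : Subgroup G} {g y : G} {p : ℕ}

theorem dl_six (hA : g ∈ Nm(A)) (hB : g ∈ Nm(B)) (hY : g ∈ Nm(Y)) (h1 : ⁅A, B⁆ ≤ Cz(A))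
    (h2 : ⁅A, B⁆ ≤ Cz(B)) (h0 : g ∈ Nm(Cz(B))) (h3 : ∀ x ∈ A, (dl g)^[4] x ∈ Cz(B))
    (h4 : ∀ x ∈ ⁅A, B⁆, (dl g)^[3] x ∈ Y) (hy : y ∈ B) : ∀ x ∈ A, ⁅x, (dl g)^[6] y⁆ ∈ Y := by
  have key : ∀ j k i e, 4 ≤ i + k → 6 ≤ e + i + j → ∀ x ∈ A,
      (dl g)^[e] ⁅(dl g)^[i] x, (dl g)^[j] y⁆ ∈ Y := by
    have h0 : ∀ i e j, 4 ≤ i → ∀ x ∈ A, (dl g)^[e] ⁅(dl g)^[i] x, (dl g)^[j] y⁆ ∈ Y :=
      fun i e j hi x hx => by
        rw [commutatorElement_eq_one_iff_mul_comm.2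
          (dl_iter_le h0 (h3 x hx) hi _ (dl_iter_mem hB hy j)).symm]
        exact dl_iter_mem hY (one_mem Y) e
    intro j
    induction j with
    | zero =>
      intro k i e _ h x hx
      by_cases hi : 4 ≤ i
      · exact h0 i e 0 hi x hx
      · exact dl_iter_le hY (h4 _ (commutator_mem_commutator (dl_iter_mem hA hx i) hy)) (by omega)
    | succ j ih =>
      intro k
      induction k with
      | zero => exact fun i e hi _ => h0 i e _ hi
      | succ k ih' =>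
        intro i e hi h x hx
        have := ih 4 i (e + 1) (by omega) (by omega) x hx
        rwa [dl_iter_comm hA hB h1 h2 (dl_iter_mem hA hx i) (dl_iter_mem hB hy j) e,
          ← Function.iterate_succ_apply' (dl g) i, ← Function.iterate_succ_apply' (dl g) j,
          mul_mem_cancel_right (ih' (i + 1) e (by omega) (by omega) x hx),
          mul_mem_cancel_left (ih 4 (i + 1) e (by omega) (by omega) x hx)] at this
  exact key 6 4 0 0 le_rfl le_rfl

variable [Finite G] [hp : Fact p.Prime]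

theorem TJ_low (h7 : 7 ≤ p) (hS : SylIn p S ⊤) (hN : Nm(TJ 0 S) ≠ ⊤) [A.Normal] [B.Normal]
    (hA : A ≤ pCore p G) (hB : ∀ K, K.Normal → K < A → K ≤ B) :
    ∃ g ∈ S, g ∉ pCore p G ∧ ∀ y ∈ A, (dl g)^[p - 1] y ∈ B := by
  have hQ := isPGroup_pCore p G
  have hQS : pCore p G ≤ S := hS.le_of_le_Nm hQ le_top le_normalizer_of_normal
  have hJ : ∃ E, MaxEA 0 S E ∧ ¬ E ≤ pCore p G := by
    by_contra hn
    push Not at hn
    refine hN (top_unique ?_)
    rw [← TJ_eq_of_le (TJ_le_iff.2 hn) hQS]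
    exact (top_le_Nm _).trans (Nm_le_Nm_TJ _)
  have lt : ∀ K : Subgroup G, K.Normal → K ≤ A → K ≠ ⊥ → ⁅K, pCore p G⁆ < K := fun K _ h1 h2 =>
    commutator_lt_of_isPGroup (hQ.to_le (h1.trans hA)) hQ le_normalizer_of_normal h2
  by_cases hc : A ≤ Cz(A)
  · obtain ⟨g, g1, g2, -, g3⟩ := low_deg (Z := A) (by omega) hS.pgrp hJ (hA.trans hQS) hA
      le_normalizer_of_normal le_normalizer_of_normal hc (commutator_le_left _ _)
    refine ⟨g, g1, g2, fun y hy => dl_iter_le (top_le_Nm B trivial)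
      (g3 A B (le_inf le_rfl le_rfl) le_normalizer_of_normal ?_ y hy) (by omega)⟩
    by_cases h0 : A = ⊥
    · rw [h0, commutator_bot_left]; exact bot_le
    · exact hB _ inferInstance (lt A inferInstance le_rfl h0)
  obtain ⟨K, ⟨k1, k2, k3⟩, hm⟩ := exists_min_card (fun K : Subgroup G => K.Normal ∧ K ≤ A ∧
    ¬ K ≤ Cz(A)) ⟨A, inferInstance, le_rfl, hc⟩
  have k4 := lt K k1 k2 fun e => k3 (e ▸ bot_le)
  have k5 : ⁅K, pCore p G⁆ ≤ Cz(A) := by
    by_contra hn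
    exact (CfH9.card_lt_of_lt k4).not_ge (hm _ ⟨inferInstance, k4.le.trans k2, hn⟩)
  have k6 := commutator_mono (le_refl K) hA
  obtain ⟨g, g1, g2, g3, g4⟩ := low_deg (Z := Cz(A)) (by omega) hS.pgrp hJ (k2.trans (hA.trans hQS))
    (k2.trans hA) le_normalizer_of_normal le_normalizer_of_normal (Cz_anti k2) k5
  refine ⟨g, g1, g2, fun y hy => dl_iter_le (k := 6) (top_le_Nm B trivial) (hB
    (A ⊓ secCz K ⁅⁅K, A⁆, pCore p G⁆) inferInstance (lt_of_le_of_ne inf_le_left fun e => ?_)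
    (mi (dl_iter_mem (top_le_Nm A trivial) hy 6) ⟨top_le_Nm _ trivial, dl_six (top_le_Nm K trivial)
      (top_le_Nm A trivial) (top_le_Nm _ trivial) (k6.trans (k5.trans (Cz_anti k2))) (k6.trans k5)
      (top_le_Nm _ trivial) g3 (g4 _ _ (le_inf (k6.trans k4.le) (k6.trans k5))
        le_normalizer_of_normal le_rfl) hy⟩)) (by omega)⟩
  exact (lt _ inferInstance (k6.trans (k4.le.trans k2)) fun e =>
    k3 (commutator_eq_bot_iff_le_centralizer.1 e)).not_ge
      (commutator_le_of_le_secCz (inf_eq_left.1 e))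

theorem inf_res_le {N : Subgroup G} (hS : SylIn p S ⊤) (hN : S ≤ N)
    (h : S ⊓ ⁅(⊤ : Subgroup G), ⊤⁆ ≤ ⁅N, N⁆) : S ⊓ pResidual p G ≤ pResidualOf p N := by
  by_contra hn
  have hS' := hS.mono hN le_top
  have hO := le_normalizer_pResidualOf (p := p) N
  obtain ⟨W, h1, h2, h3, h4, h5⟩ := exists_normal_relIndex_prime_ge hS.pgrp
    (hS.pgrp.to_le inf_le_left) (CfH7.le_normalizer_inf le_normalizer le_normalizer_of_normal)
    (CfH7.le_normalizer_inf le_normalizer (hN.trans hO))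
    (lt_of_le_of_ne (inf_le_inf_left S (pResidualOf_le_pResidual N)) fun e => hn (e ▸ inf_le_right))
  refine not_le_of_relIndex_prime h3 (tate_aux hS (h2.trans inf_le_right) h5 h4 fun t ht => ?_)
  have h6 : ⁅N, N⁆ ≤ ⁅S, S⁆ ⊔ pResidualOf p N := commutator_le.2 fun a ha b hb => by
    obtain ⟨s, hs, r, hr, rfl⟩ := hS'.exists_mul_pResidualOf ha
    obtain ⟨s', hs', r', hr', rfl⟩ := hS'.exists_mul_pResidualOf hb
    rw [show ⁅s * r, s' * r'⁆ = ⁅s, s'⁆ * (s' * s * (s'⁻¹ * r * s' * r' * r⁻¹ * (s⁻¹ * r'⁻¹ * s)) *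
      (s' * s)⁻¹) by simp only [commutatorElement_def]; group]
    exact mul_mem (mem_sup_left (commutator_mem_commutator hs hs')) (mem_sup_right
      (conj_mem_of_mem_normalizer (hO (hN (mul_mem hs' hs))) (mul_mem (mul_mem (mul_mem
        (conj_mem_of_mem_normalizer' (hO (hN hs')) hr) hr') (inv_mem hr))
        (conj_mem_of_mem_normalizer' (hO (hN hs)) (inv_mem hr')))))
  obtain ⟨s, hs, r, hr, rfl⟩ := (mem_sup_of_le_Nm ((commutator_le_self S).trans (hN.trans hO))).1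
    (h6 (h (mi ht.1 (hS.inf_pResidualOf_le_commutator' (pResidualOf_top (p := p) (G := G) ▸ ht)))))
  exact mul_mem (mem_sup_left (comm_le_Phi hS.pgrp hs)) (mem_sup_right
    (h1 (mi ((S.mul_mem_cancel_left (commutator_le_self S hs)).1 ht.1) hr)))

theorem iso_of_focal {N : Subgroup G} (hS : SylIn p S ⊤) (hN : S ≤ N)
    (h : S ⊓ ⁅(⊤ : Subgroup G), ⊤⁆ ≤ ⁅N, N⁆) [(pResidual p G).Normal] [(pResidual p N).Normal] :
    Nonempty (G ⧸ pResidual p G ≃* N ⧸ pResidual p N) := by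
  let f := (QuotientGroup.mk' (pResidual p G)).comp N.subtype
  have h1 : Function.Surjective f := fun q => by
    obtain ⟨g, rfl⟩ := QuotientGroup.mk_surjective q
    obtain ⟨s, hs, r, hr, rfl⟩ := hS.exists_mul_pResidualOf (mem_top g)
    exact ⟨⟨s, hN hs⟩, QuotientGroup.eq.2 (by simpa [pResidualOf_top] using hr)⟩
  have h2 : f.ker = pResidual p N := by
    rw [← subgroupOf_pResidualOf]
    ext ⟨n, hn⟩
    rw [mem_subgroupOf, MonoidHom.mem_ker]
    refine (QuotientGroup.eq_one_iff n).trans ⟨fun e => ?_, fun e => pResidualOf_le_pResidual N e⟩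
    obtain ⟨s, hs, r, hr, rfl⟩ := (hS.mono hN le_top).exists_mul_pResidualOf hn
    exact mul_mem (inf_res_le hS hN h (mi hs ((mul_mem_cancel_right
      (pResidualOf_le_pResidual N hr)).1 e))) hr
  exact ⟨(QuotientGroup.quotientKerEquivOfSurjective f h1).symm.trans
    (QuotientGroup.quotientMulEquivOfEq h2)⟩

theorem TJ_focal (h7 : 7 ≤ p) (hS : SylIn p S ⊤) :
    S ⊓ ⁅(⊤ : Subgroup G), ⊤⁆ ≤ ⁅Nm(TJ 0 S), Nm(TJ 0 S)⁆ :=
  fnc_TJ.focal (fun _ _ _ _ _ _ h1 h2 _ _ => TJ_low h7 h1 h2) G S hS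

end CfLj
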