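import Cfsg.Agent.OD.Pre
import Cfsg.Agent.L.ZH
import Cfsg.Agent.S2931
import Cfsg.Agent.H2.Orth3
/-! The sporadic Suzuki group is determined by the centraliser of a 2-central involution. -/
set_option autoImplicit false
set_option maxRecDepth 100000
open CfH6 MulAction Subgroup CfH9 CfH4
namespace CfL

theorem se_hom {M K : Type*} [Group M] [Group K] [Finite K] (φ : M →* K) (hφ : Function.Injective φ) {a : M}
    (a2 : a * a = 1) (hC : ∀ g, g * φ a * g⁻¹ ∈ φ.range → g ∈ φ.range)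
    (hp : ∀ s, IsConj a s → s * a = a * s → s ≠ a → Cx(φ (a * s)) ≤ φ.range) (hK : φ.range ≠ ⊤) :
    ∃ D : Subgroup M, (∀ s ∈ D, ¬ IsConj a s) ∧
      Nat.card D * Nat.card Cx(a) = Nat.card M * Nat.card (D ⊓ Cx(a) : Subgroup M) := by
  obtain ⟨g, hg⟩ : ∃ g, g ∉ φ.range := by
    by_contra h
    exact hK (top_unique fun g _ => by by_contra e; exact h ⟨g, e⟩)
  obtain ⟨D, d1, d2, d3⟩ := se_cls φ.range ⟨a, rfl⟩ (by rw [← map_mul, a2, map_one]) hC (by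
    rintro _ ⟨s, rfl⟩ h c n
    obtain ⟨k, hk⟩ := isConj_iff.1 h
    obtain ⟨m, rfl⟩ := hC k ⟨s, hk.symm⟩
    rw [← map_mul]
    exact hp s (isConj_iff.2 ⟨m, hφ (by simpa using hk)⟩) (hφ (by simpa using c)) fun e => n (e ▸ rfl))
    (isConj_iff.2 ⟨g, rfl⟩) fun h => hg (hC g h)
  have cc : ∀ H ≤ φ.range, Nat.card (H.comap φ) = Nat.card H := fun H h => by
    rw [← card_map_of_injective hφ, map_comap_eq_self h]
  have e : (Cx(φ a)).comap φ = Cx(a) := Subgroup.ext fun m => by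
    rw [mem_comap, mem_Cx, mem_Cx, ← map_mul, ← map_mul, hφ.eq_iff]
  refine ⟨D.comap φ, fun s hs h => d2 _ hs (φ.map_isConj h), ?_⟩
  rw [← e, ← comap_inf, cc _ d1, cc _ (inf_le_left.trans d1), cc _ fun k hk => hC k (by rw [mem_Cx'.1 hk]; exact ⟨a, rfl⟩),
    d3, Nat.card_congr (MonoidHom.ofInjective hφ).toEquiv]

theorem card_Cx_conj {G : Type*} [Group G] [Finite G] {a b : G} (h : IsConj a b) : Nat.card Cx(a) = Nat.card Cx(b) := by
  have x := ncard_class_mul a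
  have y := ncard_class_mul b
  rw [show {c | IsConj b c} = {c | IsConj a c} from Set.ext fun _ => ⟨h.trans, h.symm.trans⟩, ← x] at y
  exact (Nat.eq_of_mul_eq_mul_left ((Set.ncard_pos (Set.toFinite _)).2 ⟨a, IsConj.refl a⟩) y).symm

namespace Sz
open SuB (S)
variable {G : Type*} [Group G] [Finite G] {z : G} {ev : ℕ → G}

theorem Mod.exIso (M : Mod z ev) : ∃ ψ : S ≃* G, ∀ x < 9, ψ (eZ x) = ev x := by
  obtain ⟨ψ, i, h⟩ := M.exψ
  have ha : ψ (eZ 0) = z := (h 0 (by decide)).trans M.z0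
  have z2 : z * z = 1 := M.z0 ▸ M.sq 0
  have z1 : z ≠ 1 := by simpa [M.z0] using M.wne [0] []
  have cz : ∀ g, g * z = z * g → g ∈ H0.map ψ := fun g hg => gensub_le (fun x hx => mem_map.2 ⟨_, mem_gensub hx, h x hx⟩) (M.top g hg)
  have hH : ∀ s, s * eZ 0 = eZ 0 * s → s ∈ H0 := fun s hs => by
    obtain ⟨t, ht, e⟩ := cz (ψ s) (by rw [← ha, ← map_mul, hs, map_mul])
    exact i e ▸ ht
  have ne : ¬ IsConj z (ψ (eZ 3)) := fun hc => by
    have : Fact (Nat.Prime 7) := ⟨by norm_num⟩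
    have := Subgroup.orderOf_dvd_natCard (x := ψ (evw eZ [1, 9, 10])) Cx(ψ (eZ 3)) (mem_Cx.2 (by
      rw [← map_mul, ← map_mul, mem_Cx.1 (Le (inL (by decide)))]))
    rw [← card_Cx_conj hc, M.card, orderOf_injective ψ i, orderOf_eq_prime (p := 7)
      (by rw [← evw_wpow, Sz.weq _ [], evw_nil]) (Sz.wne _ [])] at this
    omega
  have hC : ∀ g, g * z * g⁻¹ ∈ ψ.range → g ∈ ψ.range := fun g ⟨s, hs⟩ => by
    have c : IsConj z (ψ s) := isConj_iff.2 ⟨g, hs.symm⟩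
    rcases invS (s := s) (i (by rw [map_mul, map_one, sq_of_isConj c z2]))
      (fun e => ne_one_of_isConj c z1 (by rw [e, map_one])) with e | e
    · obtain ⟨m, rfl⟩ := isConj_iff.1 e
      refine (ψ.range.mul_mem_cancel_left (ψ.range.inv_mem ⟨m, rfl⟩)).1 (map_le_range _ _ (cz _ ?_))
      rw [map_mul, map_mul, ha, map_inv] at hs
      calc _ = (ψ m)⁻¹ * (g * z * g⁻¹) * g := by group
        _ = _ := by rw [← hs]; group
    · exact absurd (c.trans (ψ.map_isConj e).symm) ne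
  have cc : ∀ {s t : S}, IsConj s t → Cx(ψ s) ≤ ψ.range → Cx(ψ t) ≤ ψ.range := fun {s t} hc hs g hg => by
    obtain ⟨m, rfl⟩ := isConj_iff.1 hc
    have := hs (x := (ψ m)⁻¹ * g * ψ m) (mem_Cx.2 (by
      have := mem_Cx.1 hg
      rw [map_mul, map_mul, map_inv] at this
      calc _ = (ψ m)⁻¹ * (g * (ψ m * ψ s * (ψ m)⁻¹)) * ψ m := by group
        _ = _ := by rw [this]; group))
    exact (ψ.range.mul_mem_cancel_left (ψ.range.inv_mem ⟨m, rfl⟩)).1 ((ψ.range.mul_mem_cancel_right ⟨m, rfl⟩).1 this)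
  have ca : Cx(ψ (eZ 0)) ≤ ψ.range := fun g hg => map_le_range _ _ (cz g (ha ▸ mem_Cx.1 hg))
  have ce : Cx(ψ (eZ 3)) ≤ ψ.range := by
    let φ : Cx(eZ 3) →* Cx(ψ (eZ 3)) := (ψ.comp (Subgroup.subtype _)).codRestrict _ fun m =>
      mem_Cx.2 (by simpa using congrArg ψ (mem_Cx.1 m.2))
    have r : ∀ g : Cx(ψ (eZ 3)), g ∈ φ.range ↔ g.1 ∈ ψ.range := fun g => ⟨fun ⟨m, e⟩ => ⟨m, congrArg Subtype.val e⟩,
      fun ⟨m, e⟩ => ⟨⟨m, mem_Cx.2 (i (by simpa [e] using mem_Cx.1 g.2))⟩, Subtype.ext e⟩⟩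
    have aL : eZ 0 ∈ L0 := by simpa using inL (w := [0]) (by decide)
    by_contra hn
    obtain ⟨D, d1, d2⟩ := se_hom φ (fun _ _ e => Subtype.ext (i (congrArg Subtype.val e))) (a := ⟨eZ 0, Le aL⟩)
      (Subtype.ext (Sz.sq 0 (by decide))) (fun g hg => (r g).2 (hC _ (ha ▸ (r _).1 hg))) (fun s hs c n g hg => (r g).2 (by
        obtain ⟨m, rfl⟩ := isConj_iff.1 hs
        have c : (m : S) * eZ 0 * (m : S)⁻¹ * eZ 0 = eZ 0 * (m * eZ 0 * (m : S)⁻¹) := congrArg Subtype.val c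
        have a2 := Sz.sq 0 (by decide)
        obtain ⟨l, -, e⟩ := invL hH (mul_mem aL ((mem_normalizer_iff.1 (Ln m.2) _).1 aL)) (by
          rw [mul_assoc, ← mul_assoc _ (eZ 0), c, mul_assoc, conj_mul, a2, ← mul_assoc, a2]; simp) fun e =>
          n (Subtype.ext ((eq_inv_of_mul_eq_one_right e).trans (inv_eq_of_mul_eq_one_right a2)))
        exact cc (isConj_iff.2 ⟨l, e⟩) ca (mem_Cx.2 (congrArg Subtype.val (mem_Cx.1 hg)))))
      fun e => hn fun g hg => (r ⟨g, hg⟩).1 (e.ge trivial)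
    exact noD hH _ rfl D d1 d2
  refine ⟨MulEquiv.ofBijective ψ ⟨i, fun g => hC g ?_⟩, h⟩
  have t : IsConj z (g * z * g⁻¹) := isConj_iff.2 ⟨g, rfl⟩
  have t2 := sq_of_isConj t z2
  have e2 : ψ (eZ 3) * ψ (eZ 3) = 1 := by rw [← map_mul, Sz.sq 3 (by decide), map_one]
  obtain ⟨w, hw, w2, w1⟩ := exists_invol_of_even (g := ψ (eZ 3) * (g * z * g⁻¹)) (by
    by_contra hn
    obtain ⟨j, j2, hj⟩ := invol_conj_of_odd t2 e2 (Nat.not_even_iff_odd.1 hn)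
    exact ne (t.trans (isConj_iff.2 ⟨j, by rw [inv_eq_of_mul_eq_one_right j2, hj]⟩)))
  obtain ⟨c1, c2⟩ := comm_of_mem_zpowers e2 t2 hw w2
  obtain ⟨s, rfl⟩ := ce (mem_Cx.2 c1.symm)
  exact (invS (s := s) (i (by rw [map_mul, w2, map_one])) fun e => w1 (by rw [e, map_one])).elim
    (fun e => cc e ca (mem_Cx.2 c2)) fun e => cc e ce (mem_Cx.2 c2)

theorem cardΩ : Nat.card (Cfsg.Omega (ZMod 2) (Cfsg.quadFormMinus 2 (ZMod 2) 1 1)) = 25920 := by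
  have h1 := Cfsg.Agent.S2931.card_O
  have h2 := (CfH2.rep_O (CfH2.qMinus 2 (ZMod 2) 1 1)).index_commutator_even (CfH2.qwf_of_nondeg
    (CfH2.nondeg_qMinus (F := ZMod 2) (a := 1) (b := 1) (by decide) 2)) CharTwo.two_eq_zero (by simp) (Or.inr (by simp))
  rw [CfH2.coe_qMinus] at h2
  have h3 := (Cfsg.Omega (ZMod 2) (Cfsg.quadFormMinus 2 (ZMod 2) 1 1)).card_mul_index
  rw [h1, show (Cfsg.Omega (ZMod 2) (Cfsg.quadFormMinus 2 (ZMod 2) 1 1)).index = 2 from h2] at h3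
  omega

theorem main (z : G) (hz : orderOf z = 2) (Q : Subgroup Cx(z)) [Q.Normal] (hF : Cfsg.generalizedFittingSubgroup Cx(z) = Q)
    (hQ : Cfsg.IsExtraspecial 2 Q) (hc : Nat.card Q = 2 ^ 7)
    (e : Cx(z) ⧸ Q ≃* Cfsg.Omega (ZMod 2) (Cfsg.quadFormMinus 2 (ZMod 2) 1 1))
    (hw : ∃ g : G, (∃ hq : g * z * g⁻¹ ∈ Cx(z), (⟨g * z * g⁻¹, hq⟩ : Cx(z)) ∈ Q) ∧ g * z * g⁻¹ ≠ z) :
    ∃ ψ : S ≃* G, ψ (eZ 0) = z ∧ H0.map ψ.toMonoidHom = Cx(z) ∧ ι0.range.map ψ.toMonoidHom = Q.map (Cx(z)).subtype := by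
  obtain ⟨ι, h, e1⟩ := exSt z hz Q hF hQ hc ((Nat.card_congr e.toEquiv).trans cardΩ) hw
  obtain ⟨ev, M, e2⟩ := h.exMod
  obtain ⟨ψ, e3⟩ := M.exIso
  refine ⟨ψ, (e3 0 (by decide)).trans M.z0, eq_of_le_of_card_ge (by
    rintro _ ⟨s, hs, rfl⟩
    exact mem_Cx.2 (by simpa [e3 0 (by decide), M.z0] using congrArg ψ (Ha s hs)))
    (by rw [card_map_of_injective ψ.injective, cardH, M.card]), ?_⟩
  rw [← e1, MonoidHom.map_range]
  exact congrArg _ (MonoidHom.ext fun t => by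
    rw [e2, MonoidHom.comp_apply, ι0_eq]; exact hom_evw (ρ := ψ.toMonoidHom) e3 _ (allLt_sound (qw_lt t)))

end Sz
end CfL
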