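import Cfsg.Agent.OD.Pre
import Cfsg.Agent.L.ZG
import Cfsg.Agent.L.ZT7
import Cfsg.Agent.H4.G23c
/-! The subgroup `3⁵ : M₁₁` of the sporadic Suzuki group. -/
set_option autoImplicit false
set_option maxRecDepth 100000
open CfH6 MulAction Subgroup CfH9 CfH4
namespace CfL

section
universe u
variable {G : Type u} [Group G] [Finite G]

theorem card_stepc {H : Subgroup G} {ev : ℕ → G} (a : G) (cs : List (List ℕ)) {n : ℕ}
    (h : ∀ g ∈ H, ∃ c ∈ cs, g * a * g⁻¹ = evw ev c) (hn : Nat.card (H ⊓ Cx(a) : Subgroup G) ≤ n) :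
    Nat.card H ≤ cs.length * n := by
  classical
  rw [← ncard_conj_mul H a, ← List.length_map (evw ev)]
  refine Nat.mul_le_mul (le_trans (Set.ncard_le_ncard (t := (cs.map (evw ev)).toFinset) ?_)
    ((Set.ncard_coe_finset _).le.trans (List.toFinset_card_le _))) hn
  rintro _ ⟨g, hg, rfl⟩
  obtain ⟨c, hc, e⟩ := h g hg
  exact List.mem_toFinset.2 (e ▸ List.mem_map_of_mem hc)

theorem equiv_of_two {T : Type*} [Group T] [Finite T] (D : Subgroup (G × T)) (h1 : D.map (MonoidHom.fst G T) = ⊤)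
    (h2 : D.map (MonoidHom.snd G T) = ⊤) (h3 : Nat.card D ≤ Nat.card G) (h4 : Nat.card D ≤ Nat.card T) :
    Nonempty (G ≃* T) := by
  have s1 : Function.Surjective ((MonoidHom.fst G T).comp D.subtype) := fun g => by
    obtain ⟨p, hp, e⟩ := h1.ge (mem_top g); exact ⟨⟨p, hp⟩, e⟩
  have s2 : Function.Surjective ((MonoidHom.snd G T).comp D.subtype) := fun g => by
    obtain ⟨p, hp, e⟩ := h2.ge (mem_top g); exact ⟨⟨p, hp⟩, e⟩
  exact ⟨(MulEquiv.ofBijective _ (s1.bijective_of_nat_card_le h3)).symm.trans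
    (MulEquiv.ofBijective _ (s2.bijective_of_nat_card_le h4))⟩

noncomputable def tM : Tab := ⟨nat_lit 24, nat_lit 4, nat_lit 5, nat_lit 31, [nat_lit 0xa2eb78a26c7b890b2832298ed18920,
  nat_lit 0xbd8f45a22273da699532ab1411c080, nat_lit 0xbc6af2cacca38d03a8435b66442420,
  nat_lit 0x3aea59c23273c88b292cb8a8d19820], 0, 0, 0, 0, 0⟩

noncomputable def eM : Cfsg.GolayPt ≃ {i // i < tM.N} :=
  ⟨fun y => ⟨Gol.ix y, by revert y; decide +kernel⟩, fun i => Gol.pt i.1, by decide +kernel,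
    fun i => Subtype.ext ((by decide +kernel : ∀ i < 24, Gol.ix (Gol.pt i) = i) i.1 i.2)⟩

theorem m11_ge : 7920 ≤ Nat.card (gensub m11a 4) := by
  let r : Rep tM m11a := ⟨eM.permCongrHom.toMonoidHom.comp (Subgroup.subtype _), fun x hx i =>
    (by decide +kernel : ∀ x < 4, ∀ i < 24, Gol.ix ((m11a x).1⁻¹ (Gol.pt i)) = tM.R x i) x hx i.1 i.2⟩
  exact le_trans (by decide +kernel) (r.chain_ge (σ := [[0], [1], [2], [3]]) (byW_mem (sub_lt _)) 5
    [(⟨1, [[0], [1], [2], [3]], 2, [(nat_lit 10, nat_lit 0x246ce0431220925081)]⟩, 11),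
    (⟨2, [[0, 2, 3, 2, 3, 1], [2]], 1, [(nat_lit 9, nat_lit 0x64880c9b0c882)]⟩, 10),
    (⟨3, [[3, 1, 2, 1], [2, 3, 2]], 1, [(nat_lit 8, nat_lit 0x90d329c928c3)]⟩, 9),
    (⟨4, [[2, 3, 2, 3, 1, 2, 1], [3, 2, 1, 2, 3, 2, 3, 2, 0]], 1, [(nat_lit 7, nat_lit 0x2c310986904)]⟩, 8)]
    (by decide +kernel))

theorem iso_m11 {ev : ℕ → G} (hg : gensub ev 4 = ⊤) (h1 : ∀ x < 4, ev x * ev x = 1)
    (h2 : ∀ w ∈ gcB ++ [gcR 1 [0, 1, 0, 1, 2]], evw ev w = 1) (hc : 7920 ≤ Nat.card G) : Cfsg.Spor.IsoM11 G := by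
  let e : ℕ → G × Cfsg.Spor.M11 := fun x => (ev x, m11a x)
  have i : ∀ x < 4, e x * e x = 1 := fun x hx => Prod.ext (h1 x hx) (m11a_rel.2.1 x hx)
  have hr : ∀ w ∈ gcB ++ [gcR 1 [0, 1, 0, 1, 2]], evw e w = 1 := fun w h => Prod.ext
    ((map_evw (MonoidHom.fst _ _) e w).trans (h2 w h)) ((map_evw (MonoidHom.snd _ _) e w).trans (m11a_rel.2.2 w h))
  obtain ⟨ψ, -, hψ⟩ := TE.exists_hom g23_g e (fun x hx => by
    have : x < 3 := hx
    rw [← inv4 i x (by omega)]; interval_cases x <;> rfl) fun r' h => hr r' (by revert r'; simp [g23rels, gcB])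
  have h3 := (gc_2_165 e ψ.range (inv4 i) hr (by
    simp only [List.mem_cons, List.not_mem_nil, or_false, forall_eq_or_imp, forall_eq, evw_cons, evw_nil, mul_one]
    exact ⟨⟨G23.A, hψ 0 _ (by decide) (by decide +kernel)⟩, ⟨G23.B, hψ 1 _ (by decide) (by decide +kernel)⟩,
      ⟨G23.E, hψ 2 _ (by decide) (by decide +kernel)⟩⟩)).card_le (m := 48) ⟨inferInstance, by
        rw [← G23.card_M]; exact Nat.le_of_dvd Nat.card_pos (card_range_dvd _)⟩
  exact equiv_of_two (gensub e 4) ((map_gensub _ _ _).trans hg) ((map_gensub _ _ _).trans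
    (eq_top_of_le_card _ (Gol.card_M11.trans m11_ge))) (h3.2.trans hc) (h3.2.trans (m11_ge.trans (card_le_card_group _)))

theorem quot_m11 (A : Subgroup G) {ev : ℕ → G} (h1 : ∀ x < 4, ev x * ev x = 1)
    (h2 : ∀ w ∈ gcB ++ [gcR 1 [0, 1, 0, 1, 2]], evw ev w = 1) (h3 : normalizer (A : Set G) = A ⊔ gensub ev 4)
    (h4 : 7920 * Nat.card A ≤ Nat.card (normalizer (A : Set G))) :
    Cfsg.Spor.IsoM11 (normalizer (A : Set G) ⧸ A.subgroupOf (normalizer (A : Set G))) := by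
  let π := QuotientGroup.mk' (A.subgroupOf (normalizer (A : Set G)))
  have m : ∀ x, (if x < 4 then ev x else 1) ∈ normalizer (A : Set G) := fun x => by
    split_ifs with h
    exacts [h3.ge (mem_sup_right (mem_gensub h)), one_mem _]
  let Y : ℕ → normalizer (A : Set G) := fun x => ⟨_, m x⟩
  have hY : ∀ x < 4, (Y x : G) = ev x := fun x hx => if_pos hx
  refine iso_m11 (ev := fun x => π (Y x)) (top_unique fun q _ => ?_) (fun x hx => ?_) (fun w hw => ?_) ?_
  · obtain ⟨g, rfl⟩ := QuotientGroup.mk'_surjective _ q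
    obtain ⟨k, hk, e⟩ := (sup_le (fun a ha => ⟨⟨a, le_normalizer ha⟩, mem_comap.2 (by
      rw [show π ⟨a, le_normalizer ha⟩ = 1 from (QuotientGroup.eq_one_iff _).2 ha]; exact one_mem _), rfl⟩)
      (gensub_le fun x hx => ⟨Y x, mem_gensub hx, hY x hx⟩) : A ⊔ gensub ev 4 ≤
        ((gensub (fun x => π (Y x)) 4).comap π).map (Subgroup.subtype _)) (h3.le g.2)
    exact Subtype.ext e ▸ hk
  · rw [← map_mul, show Y x * Y x = 1 from Subtype.ext (by simpa [hY x hx] using h1 x hx), map_one]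
  · rw [← map_evw, show evw Y w = 1 from Subtype.ext ((hom_evw (ρ := Subgroup.subtype _) hY w
      (by revert w; decide)).trans (h2 w hw)), map_one]
  · rw [card_eq_card_quotient_mul_card_subgroup (A.subgroupOf (normalizer (A : Set G))),
      card_subgroupOf le_normalizer] at h4
    exact Nat.le_of_mul_le_mul_right h4 Nat.card_pos
end

namespace Sz
open SuB (S)

noncomputable abbrev A0 : Subgroup S := gensub (byW eZ σA) 5
noncomputable abbrev y (i : ℕ) : S := byW eZ σA i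

theorem wA : ∀ w ∈ σA, evw eZ w ∈ A0 := fun w hw => by
  obtain ⟨i, hi, rfl⟩ := (by decide : ∀ w ∈ σA, ∃ i < 5, w = σA.getD i []) w hw
  exact mem_gensub hi

theorem Ac {a b : S} (ha : a ∈ A0) (hb : b ∈ A0) : a * b = b * a := mem_Cx.1 (gensub_le (fun i hi => mem_Cx.2
  (mem_Cx.1 (gensub_le (K := Cx(y i)) (fun j hj => mem_Cx.2 (by
    rw [y, byW, byW, ← evw_append, ← evw_append]; exact weq _ _ (by revert i j; decide +kernel))) hb)).symm) ha)

theorem A3 {a : S} (ha : a ∈ A0) : a ^ 3 = 1 := (gensub_le (K := subOf (fun g => g ∈ A0 ∧ g ^ 3 = 1) ⟨one_mem _, one_pow _⟩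
    fun a b ha hb => ⟨mul_mem ha.1 hb.1, by rw [(show Commute a b from Ac ha.1 hb.1).mul_pow, ha.2, hb.2, one_mul]⟩)
  (fun i hi => ⟨mem_gensub hi, by rw [byW, ← evw_wpow]; exact weq _ [] (by revert i; decide +kernel)⟩) ha).2

theorem yA (i : ℕ) : y i ∈ A0 := byW_mem wA i

theorem cYA : ∀ c ∈ cY.map Prod.fst, evw eZ c ∈ A0 := List.forall_mem_map.2 fun c hc => by
  rw [weq c.1 (subst σA c.2) (by revert c; decide +kernel)]; exact evw_sub yA _

noncomputable abbrev N1 : Subgroup S := A0 ⊔ gensub (byW eZ σm) 4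

theorem N1Y {g : S} (hg : g ∈ N1) : ∀ c ∈ cY.map Prod.fst, ∃ c' ∈ cY.map Prod.fst, g * evw eZ c * g⁻¹ = evw eZ c' := by
  let K := subOf (fun g : S => ∀ c ∈ cY.map Prod.fst, ∃ c' ∈ cY.map Prod.fst, g * evw eZ c * g⁻¹ = evw eZ c')
    (fun c hc => ⟨c, hc, by simp⟩) fun a b ha hb c hc => by
      obtain ⟨d, hd, e⟩ := hb c hc
      obtain ⟨d', hd', e'⟩ := ha d hd
      exact ⟨d', hd', by rw [← e', ← e]; group⟩
  refine (sup_le (fun a ha c hc => ⟨c, hc, by rw [Ac ha (cYA c hc), mul_inv_cancel_right]⟩)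
    (gen_le (K := K) (fun w hw c hc => ?_) _) : N1 ≤ K) hg
  obtain ⟨c', hc', e⟩ := List.any_eq_true.1 ((by decide +kernel : ∀ w ∈ σm, ∀ c ∈ cY.map Prod.fst,
    ((cY.map Prod.fst).any fun c' => eqW (w ++ c) (c' ++ w)) = true) w hw c hc)
  exact ⟨c', hc', mul_inv_eq_iff_eq_mul.2 (by simpa using weq _ _ e)⟩

theorem N1_le : N1 ≤ normalizer (A0 : Set S) := fun g hg => mem_normalizer_fintype (conj_gensub fun i hi => by
  obtain ⟨c, hc, e⟩ := N1Y hg (σA.getD i []) (by revert i; decide)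
  exact e ▸ cYA c hc)

theorem wN : ∀ w ∈ σm ++ [[2, 4], [4, 2]], evw eZ w ∈ N1 := forall_app (fun w hw => mem_sup_right (by
  obtain ⟨i, hi, rfl⟩ := (by decide : ∀ w ∈ σm, ∃ i < 4, w = σm.getD i []) w hw
  exact mem_gensub hi)) fun w hw => mem_sup_left (cYA w (by revert w; decide))

theorem clA {g : S} (hg : g ∈ A0) : bitN SA1 (g • r.pt 416).1 = true :=
  r.closed (bitN SA1) σA (by decide +kernel) hg _ (by decide +kernel)

theorem ltZ (v : List ℕ) : ∀ x ∈ subst zSig v, x < sB.nc := fun x hx => by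
  obtain ⟨j, -, hj⟩ := List.mem_flatMap.1 hx
  exact getD_lt (allLt_all (by decide)) j x hj

theorem fixN {h : S} (hn : h ∈ normalizer (A0 : Set S)) (hp : h • r.pt 416 = r.pt 416) (h1 : y 1 * h = h * y 1) :
    ∃ c ∈ c54, h = evw SuB.el c := by
  have o : ∀ i : r.Pt, bitN SA1 i.1 = true → bitN SA1 (h⁻¹ • i).1 = true := fun i hi => by
    obtain ⟨_, ⟨t, rfl⟩, e⟩ := r.orb_sub (by decide +kernel) wA (r.pt 416) 3 gA1 _
      (Nat.eq_of_beq_eq_true eA1 ▸ bitN_eq _ _ ▸ hi)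
    have := clA ((mem_normalizer_iff.1 (inv_mem hn) _).1 t.2)
    rwa [inv_inv, mul_smul, mul_smul, hp, show (t : S) • r.pt 416 = i from Subtype.ext e] at this
  have k : ∀ w ∈ [[1], [1, 1]], ∀ i : r.Pt, i.1 = sZ.trL (subst σA w) 416 → h • i = i := fun w hw i hi => by
    obtain ⟨a, b⟩ := (by decide : ∀ w ∈ [[1], [1, 1]], (∀ x ∈ w, x = 1) ∧ ∀ x ∈ subst σA w, x < 11) w hw
    have c := mem_Cx.1 (evw_in (ev := y) (K := Cx(h)) (w := w) fun x hx => a x hx ▸ mem_Cx.2 h1)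
    rw [show i = (evw y w)⁻¹ • r.pt 416 from Subtype.ext (by
      rw [← evw_subst, r.word b]; exact hi), smul_smul, ← (show Commute _ h from c).inv_left.eq, mul_smul, hp]
  have hJ : h ∈ SuB.J := ⟨hp, k [1] (by decide) (r.pt 415) (by decide +kernel)⟩
  have c := SuB.r.chain (byW_mem SuB.h5) 11 cJ [] kJ SuB.J inf_le_left
  have e : gensub SuB.el 5 = SuB.J := (gensub_id _ (by decide)).symm.trans SuB.J_eq.1
  rw [SuB.J_eq.2, show (cJ.map Prod.snd).prod = 100 by decide +kernel,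
    show (cJ.map fun s => s.1.p) = [54] by decide +kernel, ← e] at c
  have k5 := (Bool.and_eq_true _ _).mp k54
  obtain ⟨u, u1, u2, u3⟩ := SuB.r.lv_enum (k := 5) (by decide) fin54 zcV [54] _ [] (by decide +kernel) k5.1 rfl
    (le_trans (by omega) (show 6048 ≤ _ by decide +kernel)) forall_nil k5.2 h ⟨e.ge hJ, fun i hi =>
      k [1, 1] (by decide) i ((List.mem_singleton.1 hi).trans (by decide +kernel))⟩
    (forall_cons ⟨forall_nil, fun i _ hi _ => Or.inl (by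
      rw [evw_nil, inv_one, one_smul, mul_one, ← bitN_eq]; exact o i (by rw [hi]; decide +kernel))⟩ forall_nil)
  rw [evw_nil, mul_one] at u2
  subst u2
  rcases (Bool.or_eq_true _ _).mp u3 with e | e
  · have := o (r.pt 515) (by decide +kernel)
    rw [show ((evw SuB.el u)⁻¹ • r.pt 515).1 = sB.trL u 515 from SuB.r.word u1 _] at this
    simp [this] at e
  · exact ⟨u, List.contains_iff_mem.1 e, rfl⟩

theorem k54' : ∀ c ∈ c54, allLt sB.nc c = true ∧ sB.same bs (subst zSig [2, 4] ++ c) (c ++ subst zSig [2, 4]) = true ∧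
    ((∃ i < 5, sB.same bs (subst zSig (σA.getD i []) ++ c) (c ++ subst zSig (σA.getD i [])) = false) ∨
      ∃ d ∈ [[], [2, 4], [4, 2]], sB.same bs c (subst zSig d) = true) := by decide +kernel

theorem fixK {h : S} (hp : h • r.pt 416 = r.pt 416) (hc : ∀ i, y i * h = h * y i) :
    ∃ c ∈ [[], [2, 4], [4, 2]], h = evw eZ c := by
  obtain ⟨c, hc', rfl⟩ := fixN (mem_normalizer_fintype (conj_gensub fun i _ => by
    rw [← hc, mul_inv_cancel_right]; exact yA i)) hp (hc 1)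
  obtain ⟨k1, -, ⟨i, -, e⟩ | ⟨d, hd, e⟩⟩ := k54' c hc'
  · rw [SuB.r.same_of hbs (forall_app (ltZ _) (allLt_sound k1)) (forall_app (allLt_sound k1) (ltZ _)) (by
      rw [evw_append, evw_append, evw_subst]; exact hc i)] at e
    exact absurd e (by decide)
  · exact ⟨d, hd, (SuB.r.of_same base (allLt_sound k1) (ltZ _) e).trans (evw_subst _ _ _)⟩

theorem cardA : Nat.card A0 = 243 := le_antisymm (card_step (r.pt 416) (A := {i | bitN SA1 i.1 = true}) (c := 81) (n := 3)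
    (fun _ => clA) (r.ncard_le _ (fun _ h => h) 81 (by decide +kernel))
    (card_le_list (K := A0 ⊓ stabilizer S (r.pt 416)) fun g hg => fixK hg.2 fun i => Ac (yA i) hg.1))
  (le_trans (by decide +kernel) (r.chain_ge yA 11 _ kA))

theorem cenA {g : S} (h : ∀ i, y i * g = g * y i) : g ∈ A0 := by
  have f : sZ.trL [2, 4] (g • r.pt 416).1 = (g • r.pt 416).1 := (r.fix_iff (by decide) _).1 (by
    rw [← mul_smul, show evw eZ [2, 4] = y 0 from rfl, h, mul_smul]
    exact congrArg _ ((r.fix_iff (w := [2, 4]) (by decide) _).2 (by decide +kernel)))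
  have := (allN_iff _ _).1 (show allN (fun i => !Nat.beq (sZ.trL [2, 4] i) i || bitN SA1 i || bitN SA2 i) 1782 = true by
    decide +kernel) _ (g • r.pt 416).2
  rw [f, Nat.beq_refl, bitN_eq, bitN_eq] at this
  have cm : ∀ {a : S}, a ∈ A0 → ∀ i, y i * (a⁻¹ * g) = a⁻¹ * g * y i := fun ha i =>
    (show Commute _ _ from Ac (yA _) (inv_mem ha)).mul_right (h i)
  rcases (Bool.or_eq_true _ _).mp this with e | e
  · obtain ⟨_, ⟨t, rfl⟩, e⟩ := r.orb_sub (by decide +kernel) wA (r.pt 416) 3 gA1 _ (Nat.eq_of_beq_eq_true eA1 ▸ e)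
    obtain ⟨c, hc, e⟩ := fixK (h := (t : S)⁻¹ * g) (by rw [mul_smul, ← Subtype.ext e]; exact inv_smul_smul _ _) (cm t.2)
    refine (mul_mem_cancel_left (inv_mem t.2)).1 (e ▸ ?_)
    rcases List.mem_cons.1 hc with rfl | hc
    exacts [one_mem _, cYA c ((by decide : ∀ c ∈ [[2, 4], [4, 2]], c ∈ cY.map Prod.fst) c hc)]
  · obtain ⟨_, ⟨t, rfl⟩, e⟩ := r.orb_sub (by decide +kernel) wA (r.pt 135) 3 gA2 _ (Nat.eq_of_beq_eq_true eA2 ▸ e)
    obtain ⟨c, hc, e⟩ := fixN (h := evw eZ (subst (σm ++ [[2, 4], [4, 2]]) mW) * ((t : S)⁻¹ * g))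
      (mul_mem (N1_le (evw_sub (byW_mem wN) _)) (mem_normalizer_fintype (conj_gensub fun i _ => by
        rw [← cm t.2, mul_inv_cancel_right]; exact yA i))) (by
      rw [mul_smul, mul_smul, ← Subtype.ext e, ← eq_inv_smul_iff]
      exact (inv_smul_smul _ _).trans (Subtype.ext ((r.word (by decide) _).trans (by decide +kernel)).symm))
      ((show Commute _ _ by rw [Commute, SemiconjBy, y, byW, ← evw_append, ← evw_append]; exact weq _ _).mul_right (cm t.2 1))
    obtain ⟨k1, k2, -⟩ := k54' c hc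
    have := SuB.r.of_same base (forall_app (ltZ _) (allLt_sound k1)) (forall_app (allLt_sound k1) (ltZ _)) k2
    rw [evw_append, evw_append, evw_subst, ← e, mul_assoc, ← show evw (byW SuB.el zSig) [2, 4] * _ = _ * evw (byW SuB.el zSig) [2, 4] from cm t.2 0,
      ← mul_assoc, ← mul_assoc _ (evw (byW SuB.el zSig) [2, 4]), mul_left_inj] at this
    exact absurd ((evw_append _ _ _).trans (this.trans (evw_append _ _ _).symm)) (wne _ _)

theorem NY {g : S} (hg : g ∈ normalizer (A0 : Set S)) {i : ℕ} (hi : i < 3) :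
    ∃ c ∈ cY.map Prod.fst, g * y i * g⁻¹ = evw eZ c := by
  obtain ⟨q, hq⟩ : ∃ q : r.Pt, y i • q = q := by
    obtain ⟨q, h1, h2⟩ := (by decide +kernel : ∀ i < 3, ∃ q < 1782, sZ.trL (σA.getD i []) q = q) i hi
    exact ⟨⟨q, h1⟩, (r.fix_iff (getD_lt (allLt_all (by decide)) i) _).2 h2⟩
  obtain ⟨n, hn⟩ := r.orb_all wN (r.pt 416) 3 gN eN (g • q)
  have a := (mem_normalizer_iff.1 (N1_le (inv_mem n.2)) _).1 ((mem_normalizer_iff.1 hg _).1 (yA i))
  obtain ⟨c, hc, e⟩ := fixK (h := (n : S)⁻¹ * (g * y i * g⁻¹) * (n : S)⁻¹⁻¹) (by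
    rw [inv_inv, mul_smul, mul_smul, show (n : S) • r.pt 416 = g • q from hn, mul_smul, mul_smul, inv_smul_smul, hq,
      ← show (n : S) • r.pt 416 = g • q from hn, inv_smul_smul]) fun i => Ac (yA i) a
  rcases List.mem_cons.1 hc with rfl | hc
  · exact absurd (conj_eq_one_iff.1 (conj_eq_one_iff.1 e)) (wne (σA.getD i []) [] ((by decide +kernel :
      ∀ i < 3, (allLt 11 (σA.getD i []) && allLt 11 [] && !sZ.same bs (σA.getD i []) []) = true) i hi))
  · obtain ⟨d, hd, e'⟩ := N1Y n.2 c ((by decide : ∀ c ∈ [[2, 4], [4, 2]], c ∈ cY.map Prod.fst) c hc)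
    exact ⟨d, hd, by rw [← e', ← e]; group⟩

theorem N_eq : normalizer (A0 : Set S) = N1 ∧ 7920 * 243 ≤ Nat.card N1 := by
  have h1 : 7920 * 243 ≤ Nat.card N1 := le_trans (by decide +kernel) (r.chain_ge (byW_mem wN) 11 _ kN)
  refine ⟨(eq_of_le_of_card_ge N1_le (le_trans ?_ h1)).symm, h1⟩
  refine (card_step (r.pt 416) (A := Set.univ) (c := 1782) (fun _ _ => trivial) ((Set.ncard_univ _).trans r.card_Pt).le
    (card_stepc (H := _ ⊓ _) (ev := eZ) (y 1) ((cY.map Prod.fst).drop 2) (fun g hg => ?_)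
    (card_le_list (K := _ ⊓ _ ⊓ _) fun g hg => fixN hg.1.1 hg.1.2 (mem_Cx.1 hg.2).symm))).trans (by decide +kernel)
  obtain ⟨c, h, e⟩ := NY hg.1 (show 1 < 3 by decide)
  rcases (by decide +kernel : ∀ c ∈ cY.map Prod.fst, c ∈ (cY.map Prod.fst).drop 2 ∨
    (∀ x ∈ c, x < 11) ∧ sZ.trL c 416 = 416) c h with h | h
  · exact ⟨c, h, e⟩
  have := (r.fix_iff h.1 (r.pt 416)).2 h.2
  rw [← e, mul_smul, mul_smul, inv_smul_eq_iff.2 (show r.pt 416 = g • r.pt 416 from hg.2.symm), smul_eq_iff_eq_inv_smul,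
    inv_smul_eq_iff.2 (show r.pt 416 = g • r.pt 416 from hg.2.symm)] at this
  exact absurd ((r.fix_iff (w := σA.getD 1 []) (by decide) _).1 this) (by decide +kernel)

theorem cls3 {x : S} (hx : x ∈ H0) (x3 : x ^ 3 = 1) {K : Subgroup S} (hK : Nat.card K ≤ 8)
    (h : ∀ q ∈ ι0.range, q * x * q⁻¹ * x⁻¹ ∈ K) : ∃ c, c * x * c⁻¹ ∈ zpowers (y 0) := by
  have : Fact (Nat.Prime 3) := ⟨by norm_num⟩
  have h1 := ncard_conj_mul ι0.range x
  have h2 : {b | ∃ g ∈ ι0.range, g * x * g⁻¹ = b}.ncard ≤ 8 := by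
    refine le_trans (Set.ncard_le_ncard_of_injOn (· * x⁻¹) (t := K) ?_ (mul_left_injective _).injOn) ((Nat.card_coe_set_eq _).ge.trans hK)
    rintro _ ⟨g, hg, rfl⟩; exact h g hg
  have h3 : Nat.card ((Cx(x)).comap ι0) = Nat.card (ι0.range ⊓ Cx(x) : Subgroup S) := by
    rw [← card_map_of_injective ι0_inj, map_comap_eq]
  rw [cardQ, ← h3] at h1
  obtain ⟨t, ht, h4⟩ : ∃ t ∈ (Cx(x)).comap ι0, t * t = 1 ∧ t ≠ 1 ∧ t ≠ Zm := by
    generalize (Cx(x)).comap ι0 = C at h1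
    have nl : ∀ (D : Subgroup Tm) (l : List Tm), l.length < Nat.card D → ∃ s ∈ D, s ∉ l := fun D l hl => by
      classical
      by_contra hn
      refine hl.not_ge ((Nat.card_coe_set_eq (D : Set Tm)).le.trans (le_trans (Set.ncard_le_ncard (t := l.toFinset) fun s hs => ?_)
        ((Set.ncard_coe_finset _).le.trans (List.toFinset_card_le _))))
      by_contra e
      exact hn ⟨s, hs, fun h => e (List.mem_toFinset.2 h)⟩
    obtain ⟨s, hs, s1⟩ := nl C [1, Zm] (by change 2 < _; nlinarith)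
    have h5 := card_stepc (H := C) (ev := fun i => if i = 0 then s else Zm) s [[0], [1, 0]] (fun g _ => by
      simpa using (by decide +kernel : ∀ s g : Tm, g * s * g⁻¹ = s ∨ g * s * g⁻¹ = Zm * s) s g) le_rfl
    obtain ⟨u, hu, u1⟩ := nl (C ⊓ Cx(s)) [1, Zm, s, Zm * s] (by change 4 < _; change _ ≤ 2 * _ at h5; nlinarith)
    rcases (by decide +kernel : ∀ s u : Tm, u * s = s * u → (s = 1 ∨ s = Zm) ∨ (u = 1 ∨ u = Zm ∨ u = s ∨ u = Zm * s) ∨
      s * s = 1 ∨ u * u = 1 ∨ s * u * (s * u) = 1 ∧ s * u ≠ 1 ∧ s * u ≠ Zm) s u (mem_Cx.1 hu.2) with e | e | e | e | e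
    · exact absurd (by simpa using e) s1
    · exact absurd (by simpa using e) u1
    · exact ⟨s, hs, e, by simpa using s1⟩
    · exact ⟨u, hu.1, e, fun e => u1 (by simp [e]), fun e => u1 (by simp [e])⟩
    · exact ⟨_, mul_mem hs hu.1, e⟩
  obtain ⟨g, hg, e⟩ := t54 t h4
  have h5 : g⁻¹ * x * g⁻¹⁻¹ ∈ gensub eZ 7 := K1_eq'.ge ⟨H0.mul_mem (H0.mul_mem (H0.inv_mem hg) hx)
    (H0.inv_mem (H0.inv_mem hg)), mem_Cx.2 (by
    have := mem_Cx.1 (mem_comap.1 ht)
    rw [← e] at this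
    calc _ = g⁻¹ * (x * (g * eZ 5 * g⁻¹)) * g := by group
      _ = _ := by rw [← this]; group)⟩
  have l := zpowers_le.2 (evw_mem (K := gensub eZ 7) (fun _ => mem_gensub) (w := [2, 4]) (by decide))
  obtain ⟨c, -, h6⟩ := conj_into (p := 3) (n := 1) l (not_dvd_relIndex l (a := 3) (b := 20480) (le_antisymm
    (K1_eq ▸ tail.2.trans (by decide +kernel)) (le_trans (by decide +kernel) ((r.lv_ge (by decide) _ _ k2).trans
    (card_le_of_le inf_le_left)))) (by rw [Nat.card_zpowers]; exact orderOf_eq_prime (A3 (yA 0)) (wne _ [])) (by norm_num)) h5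
    (by rw [conj_pow, pow_one, x3]; simp)
  exact ⟨c * g⁻¹, by rw [mul_inv_rev, mul_assoc c, mul_assoc c, ← mul_assoc (g⁻¹ * x), ← mul_assoc c]; exact h6⟩

theorem Uy : 3 ^ 7 ∣ Nat.card (normalizer (zpowers (y 0) : Set S)) := by
  refine Dvd.dvd.trans ?_ (card_dvd_of_le (H := gensub (byW eZ σU) 10) (gen_le (fun w hw => mem_normalizer_fintype ?_) _))
  · rw [le_antisymm (cardU _ (fun y hy => by
      interval_cases y <;> simpa [byW, σU] using sq _ (by decide)) fun w hw => by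
      rw [← evw_subst]; exact weq _ [] (by revert w; decide +kernel)).2 (le_trans (by decide +kernel)
      (r.chain_ge (byW_mem fun w hw => by
        obtain ⟨i, hi, rfl⟩ := (by decide : ∀ w ∈ σU, ∃ i < 10, w = σU.getD i []) w hw
        exact mem_gensub hi) 11 _ kU))]
    norm_num
  rintro _ ⟨n, rfl⟩
  rw [← conj_zpow]
  refine zpow_mem ?_ n
  rcases (by decide +kernel : ∀ w ∈ σU, eqW (w ++ [2, 4]) ([2, 4] ++ w) = true ∨
    eqW (w ++ [2, 4]) ([2, 4].reverse ++ w) = true) w hw with e | e <;> have := weq _ _ e <;>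
    rw [evw_append, evw_append] at this
  · exact (mul_inv_eq_iff_eq_mul.2 this).symm ▸ mem_zpowers _
  · rw [rev (by decide)] at this
    exact (mul_inv_eq_iff_eq_mul.2 this).symm ▸ inv_mem (mem_zpowers _)

theorem three {G : Type*} [Group G] [Finite G] (φ : S ≃* G) {X : Subgroup G} (hX : (zpowers (y 0)).map φ.toMonoidHom = X)
    (P : Sylow 3 (normalizer (X : Set G))) :
    ¬ 3 ∣ ((P : Subgroup (normalizer (X : Set G))).map (Subgroup.subtype _)).index ∧
      ∃ A ≤ (P : Subgroup (normalizer (X : Set G))).map (Subgroup.subtype _), Cfsg.IsElementaryAbelian 3 A ∧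
        Nat.card A = 3 ^ 5 ∧ centralizer (A : Set G) = A ∧ ∃ _ : (A.subgroupOf (normalizer (A : Set G))).Normal,
          Cfsg.Spor.IsoM11 (normalizer (A : Set G) ⧸ A.subgroupOf (normalizer (A : Set G))) := by
  have : Fact (Nat.Prime 3) := ⟨by norm_num⟩
  have h1 := P.pow_dvd_card_of_pow_dvd_card (n := 7) (by
    rw [← hX, ← map_equiv_normalizer_eq, card_map_of_injective φ.injective]; exact Uy)
  have h2 := ((P : Subgroup (normalizer (X : Set G))).map (Subgroup.subtype _)).card_mul_index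
  rw [card_map_of_injective (subtype_injective _), ← Nat.card_congr φ.toEquiv, Suz.card] at h2
  have h3 : ¬ 3 ∣ ((P : Subgroup (normalizer (X : Set G))).map (Subgroup.subtype _)).index := fun h => by
    have := Nat.mul_dvd_mul h1 h
    rw [h2] at this
    revert this; decide +kernel
  refine ⟨h3, ?_⟩
  obtain ⟨R, hR⟩ := ((IsPGroup.of_card (p := 3) (n := 5) cardA).map φ.toMonoidHom).exists_le_sylow
  obtain ⟨g, hg⟩ := exists_smul_eq G R ((P.2.map _).toSylow h3)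
  let e := φ.trans (MulAut.conj g)
  refine ⟨A0.map e.toMonoidHom, ?_, ⟨⟨⟨?_⟩⟩, ?_⟩, by rw [card_map_of_injective e.injective, cardA]; rfl, le_antisymm ?_ ?_,
    inferInstance, quot_m11 _ (ev := fun x => e (byW eZ σm x)) (fun x hx => ?_) (fun w hw => ?_) ?_ ?_⟩
  · rintro _ ⟨a, ha, rfl⟩
    exact (congrArg (fun R : Sylow 3 G => (R : Subgroup G)) hg).le ⟨_, hR ⟨a, ha, rfl⟩, rfl⟩
  · rintro ⟨_, a, ha, rfl⟩ ⟨_, b, hb, rfl⟩
    exact Subtype.ext (show e a * e b = e b * e a by simpa using congrArg e (Ac ha hb))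
  · rintro _ ⟨a, ha, rfl⟩
    rw [← map_pow, A3 ha, map_one]
  · intro k hk
    obtain ⟨k, rfl⟩ := e.surjective k
    have c : ∀ i, y i * k = k * y i := fun i => e.injective (by simpa using hk _ ⟨_, yA i, rfl⟩)
    exact ⟨k, cenA c, rfl⟩
  · rintro _ ⟨a, ha, rfl⟩ _ ⟨b, hb, rfl⟩
    simpa using congrArg e (Ac hb ha)
  · rw [← map_mul, byW, ← evw_append, weq _ [] (by revert x; decide +kernel), evw_nil, map_one]
  · refine (map_evw e.toMonoidHom _ w).symm.trans ?_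
    rw [← evw_subst, weq _ [] (by revert w; decide +kernel), evw_nil, map_one]
  · rw [← map_equiv_normalizer_eq, N_eq.1, Subgroup.map_sup, map_gensub _ (byW eZ σm)]; rfl
  · rw [← map_equiv_normalizer_eq, N_eq.1, card_map_of_injective e.injective, card_map_of_injective e.injective, cardA]
    exact N_eq.2

end Sz
end CfL
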